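import Mathlib
import Cfsg.Prelude.Def_Local
import Cfsg.Agent.Helper9.PLocal

set_option autoImplicit false

namespace Cfsg.Agent.Helper10

open Subgroup Cfsg.Agent.Helper9

/-- in a group with trivial `p`-layer, a `p'`-subgroup of `C(a)` normalized by `C(a)`, `a` a
`p`-element, lies in the `p'`-core -/
theorem ppc_of_centralizer_pelt {X : Type*} [Group X] [Finite X] (p : ℕ) [Fact p.Prime]
    (hL : Cfsg.pLayer p X = ⊥) (a : X) (ha : ∃ k : ℕ, a ^ p ^ k = 1) (D : Subgroup X)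
    (hD : D ≤ centralizer ({a} : Set X)) (hn : centralizer ({a} : Set X) ≤ normalizer (D : Set X))
    (hc : (Nat.card ↥D).Coprime p) : D ≤ Cfsg.pPrimeCore p X := by
  have hP : IsPGroup p ↥(zpowers a) := by
    obtain ⟨k, hk⟩ := ha
    rintro ⟨g, hg⟩
    obtain ⟨i, rfl⟩ := Subgroup.mem_zpowers_iff.mp hg
    refine ⟨k, Subtype.ext ?_⟩
    show (a ^ i) ^ p ^ k = 1
    rw [← zpow_natCast, ← zpow_mul, mul_comm, zpow_mul, zpow_natCast, hk, one_zpow]
  have hPM : zpowers a ≤ centralizer ({a} : Set X) := by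
    rw [Subgroup.zpowers_le, Subgroup.mem_centralizer_iff]
    intro h hh
    rw [Set.mem_singleton_iff.mp hh]
  have hMP : centralizer ({a} : Set X) ≤ normalizer ((zpowers a : Subgroup X) : Set X) :=
    (centralizer_singleton_le_centralizer_zpowers a).trans (Subgroup.centralizer_le_normalizer _)
  have hcent := (centralizer_map_le_map_centralizer p (Cfsg.pPrimeCore p X)
    (pPrimeCore_coprime p) (zpowers a) hP).trans
    (Subgroup.map_mono (centralizer_zpowers_le_centralizer_singleton a))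
  have hmain := (pLayer_eq_bot_of_local p hL (zpowers a) (centralizer ({a} : Set X)) hP hPM hMP
    hcent).2
  exact (le_ppcOf hD hn hc).trans hmain

/-- solvable balance for a `q`-element `z` and a `q'`-element `d` commuting with it. -/
theorem bal_core {G : Type*} [Group G] [Finite G] (q : ℕ) [Fact q.Prime]
    (S X : Subgroup G) (z d : G)
    (hS : Group.IsSolvable ↥S)
    (hzS : z ∈ normalizer (S : Set G)) (hdS : d ∈ normalizer (S : Set G))
    (hzd : Commute d z)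
    (hzq : ∃ k : ℕ, z ^ q ^ k = 1)
    (hXq : (Nat.card ↥X).Coprime q)
    (hXz : X ≤ centralizer ({z} : Set G))
    (hXn : (S ⊔ (zpowers d ⊔ zpowers z)) ⊓ centralizer ({z} : Set G) ≤ normalizer (X : Set G))
    (hdX : d ∈ X) :
    X ⊓ S ≤ (Cfsg.pPrimeCore q ↥S).map S.subtype ∧
      ∀ s ∈ S, s⁻¹ * d⁻¹ * s * d ∈ (Cfsg.pPrimeCore q ↥S).map S.subtype := by
  obtain ⟨K, hK⟩ : ∃ K : Subgroup G, K = S ⊔ (zpowers d ⊔ zpowers z) := ⟨_, rfl⟩
  have hSK : S ≤ K := by rw [hK]; exact le_sup_left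
  have hdK : d ∈ K := by
    rw [hK]; exact Subgroup.mem_sup_right (Subgroup.mem_sup_left (Subgroup.mem_zpowers d))
  have hzK : z ∈ K := by
    rw [hK]; exact Subgroup.mem_sup_right (Subgroup.mem_sup_right (Subgroup.mem_zpowers z))
  have hAsol : Group.IsSolvable ↥(zpowers d ⊔ zpowers z) := by
    have hzn : zpowers z ≤ normalizer ((zpowers d : Subgroup G) : Set G) := by
      rw [Subgroup.zpowers_le]
      apply Subgroup.centralizer_le_normalizer
      rw [Subgroup.mem_centralizer_iff]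
      intro h hh
      obtain ⟨i, rfl⟩ := Subgroup.mem_zpowers_iff.mp hh
      exact (hzd.zpow_left i).eq
    refine (sup_of_le_normalizer (zpowers d) (zpowers z) hzn).1 ?_ ?_
    · refine Group.isSolvable_of_comm (fun a b => ?_)
      obtain ⟨a, ha⟩ := a
      obtain ⟨b, hb⟩ := b
      obtain ⟨i, rfl⟩ := Subgroup.mem_zpowers_iff.mp ha
      obtain ⟨j, rfl⟩ := Subgroup.mem_zpowers_iff.mp hb
      exact Subtype.ext ((Commute.zpow_zpow_self d i j).eq)
    · refine Group.isSolvable_of_comm (fun a b => ?_)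
      obtain ⟨a, ha⟩ := a
      obtain ⟨b, hb⟩ := b
      obtain ⟨i, rfl⟩ := Subgroup.mem_zpowers_iff.mp ha
      obtain ⟨j, rfl⟩ := Subgroup.mem_zpowers_iff.mp hb
      exact Subtype.ext ((Commute.zpow_zpow_self z i j).eq)
  have hAn : zpowers d ⊔ zpowers z ≤ normalizer (S : Set G) :=
    sup_le (Subgroup.zpowers_le.mpr hdS) (Subgroup.zpowers_le.mpr hzS)
  have hKsol : Group.IsSolvable ↥K := by
    rw [hK]
    exact (sup_of_le_normalizer S (zpowers d ⊔ zpowers z) hAn).1 hS hAsol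
  have hL : Cfsg.pLayer q ↥K = ⊥ := pLayer_eq_bot_of_solvable q hKsol
  have hD0le : X ⊓ K ≤ K := inf_le_right
  have hDc : (X ⊓ K).subgroupOf K ≤ centralizer ({(⟨z, hzK⟩ : ↥K)} : Set ↥K) := by
    intro y hy
    rw [Subgroup.mem_subgroupOf] at hy
    have h1 : (y : G) ∈ centralizer ({z} : Set G) := hXz (Subgroup.mem_inf.mp hy).1
    rw [Subgroup.mem_centralizer_iff] at h1 ⊢
    intro h hh
    rw [Set.mem_singleton_iff.mp hh]
    exact Subtype.ext (h1 z (Set.mem_singleton z))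
  have hDn : centralizer ({(⟨z, hzK⟩ : ↥K)} : Set ↥K) ≤
      normalizer ((((X ⊓ K).subgroupOf K : Subgroup ↥K)) : Set ↥K) := by
    intro m hm
    rw [← Subgroup.subgroupOf_normalizer_eq hD0le, Subgroup.mem_subgroupOf]
    apply Subgroup.inf_normalizer_le_normalizer_inf
    refine Subgroup.mem_inf.mpr ⟨hXn (Subgroup.mem_inf.mpr ⟨?_, ?_⟩), Subgroup.le_normalizer m.2⟩
    · rw [← hK]; exact m.2
    · rw [Subgroup.mem_centralizer_iff] at hm ⊢
      intro h hh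
      rw [Set.mem_singleton_iff.mp hh]
      exact congrArg Subtype.val (hm ⟨z, hzK⟩ (Set.mem_singleton _))
  have hDcard : (Nat.card ↥((X ⊓ K).subgroupOf K)).Coprime q := by
    rw [Nat.card_congr (Subgroup.subgroupOfEquivOfLe hD0le).toEquiv]
    exact Nat.Coprime.coprime_dvd_left (Subgroup.card_dvd_of_le inf_le_left) hXq
  have hza : ∃ k : ℕ, (⟨z, hzK⟩ : ↥K) ^ q ^ k = 1 := by
    obtain ⟨k, hk⟩ := hzq
    exact ⟨k, Subtype.ext hk⟩
  have key := ppc_of_centralizer_pelt q hL (⟨z, hzK⟩ : ↥K) hza _ hDc hDn hDcard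
  have hU : ∀ x ∈ X, x ∈ K → x ∈ (Cfsg.pPrimeCore q ↥K).map K.subtype := by
    intro x hx hxK
    exact Subgroup.mem_map.mpr ⟨⟨x, hxK⟩,
      key (Subgroup.mem_subgroupOf.mpr (Subgroup.mem_inf.mpr ⟨hx, hxK⟩)), rfl⟩
  have hUn : K ≤ normalizer (((Cfsg.pPrimeCore q ↥K).map K.subtype : Subgroup G) : Set G) :=
    Subgroup.le_normalizer.trans (char_map_normalizer K (Cfsg.pPrimeCore q ↥K))
  have hUS : (Cfsg.pPrimeCore q ↥K).map K.subtype ⊓ S ≤ (Cfsg.pPrimeCore q ↥S).map S.subtype := by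
    apply le_ppcOf inf_le_right
    · refine le_trans ?_ Subgroup.inf_normalizer_le_normalizer_inf
      exact le_inf (hSK.trans hUn) Subgroup.le_normalizer
    · exact Nat.Coprime.coprime_dvd_left (Subgroup.card_dvd_of_le inf_le_left) (ppcOf_coprime q K)
  refine ⟨?_, ?_⟩
  · intro x hx
    obtain ⟨hx1, hx2⟩ := Subgroup.mem_inf.mp hx
    exact hUS (Subgroup.mem_inf.mpr ⟨hU x hx1 (hSK hx2), hx2⟩)
  · intro s hs
    apply hUS
    refine Subgroup.mem_inf.mpr ⟨?_, ?_⟩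
    · have hdU := hU d hdX hdK
      have hsn := hUn (hSK hs)
      have h1 : s⁻¹ * d⁻¹ * s⁻¹⁻¹ ∈ (Cfsg.pPrimeCore q ↥K).map K.subtype :=
        (Subgroup.mem_normalizer_iff.mp (Subgroup.inv_mem _ hsn) d⁻¹).mp (Subgroup.inv_mem _ hdU)
      rw [inv_inv] at h1
      exact Subgroup.mul_mem _ h1 hdU
    · have h1 : d⁻¹ * s * d⁻¹⁻¹ ∈ S :=
        (Subgroup.mem_normalizer_iff.mp (Subgroup.inv_mem _ hdS) s).mp hs
      rw [inv_inv] at h1
      have e : s⁻¹ * d⁻¹ * s * d = s⁻¹ * (d⁻¹ * s * d) := by group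
      rw [e]
      exact Subgroup.mul_mem _ (Subgroup.inv_mem _ hs) h1

/-- the elements of `H` centralizing `S` modulo `N`. -/
def cmodSub {G : Type*} [Group G] (H S N : Subgroup G) (hS : H ≤ normalizer (S : Set G))
    (hN : H ≤ normalizer (N : Set G)) : Subgroup G where
  carrier := {h | h ∈ H ∧ ∀ s ∈ S, s⁻¹ * h⁻¹ * s * h ∈ N}
  one_mem' := ⟨H.one_mem, fun s _ => by
    have e : s⁻¹ * (1 : G)⁻¹ * s * 1 = 1 := by group
    rw [e]; exact N.one_mem⟩
  mul_mem' := by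
    rintro h1 h2 ⟨hh1, hr1⟩ ⟨hh2, hr2⟩
    refine ⟨H.mul_mem hh1 hh2, fun s hs => ?_⟩
    have c1 := hr1 s hs
    have c2 := hr2 s hs
    have c3 : h2⁻¹ * (s⁻¹ * h1⁻¹ * s * h1) * h2⁻¹⁻¹ ∈ N :=
      (Subgroup.mem_normalizer_iff.mp (hN (H.inv_mem hh2)) _).mp c1
    have e : s⁻¹ * (h1 * h2)⁻¹ * s * (h1 * h2) =
        (s⁻¹ * h2⁻¹ * s * h2) * (h2⁻¹ * (s⁻¹ * h1⁻¹ * s * h1) * h2⁻¹⁻¹) := by group
    rw [e]; exact N.mul_mem c2 c3
  inv_mem' := by
    rintro h ⟨hh, hr⟩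
    refine ⟨H.inv_mem hh, fun s hs => ?_⟩
    have hs' : h * s * h⁻¹ ∈ S := (Subgroup.mem_normalizer_iff.mp (hS hh) s).mp hs
    have c := hr (h * s * h⁻¹) hs'
    have e : s⁻¹ * h⁻¹⁻¹ * s * h⁻¹ = ((h * s * h⁻¹)⁻¹ * h⁻¹ * (h * s * h⁻¹) * h)⁻¹ := by group
    rw [e]; exact N.inv_mem c

theorem mem_cmodSub {G : Type*} [Group G] (H S N : Subgroup G) (hS : H ≤ normalizer (S : Set G))
    (hN : H ≤ normalizer (N : Set G)) (h : G) :
    h ∈ cmodSub H S N hS hN ↔ h ∈ H ∧ ∀ s ∈ S, s⁻¹ * h⁻¹ * s * h ∈ N := Iff.rfl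

end Cfsg.Agent.Helper10
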