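import Mathlib
import Cfsg.Prelude.Def_Local
import Cfsg.Agent.Helper9.PLocal
import Cfsg.Agent.Helper10.BalCore

set_option autoImplicit false

namespace Cfsg.Agent.Helper10

open Subgroup Cfsg.Agent.Helper9
open scoped commutatorElement

/-- control of `q'`-cores of centralizers under a coprime operator group with solvable
commutator. -/
theorem core_control {G : Type*} [Group G] [Finite G] (q : ℕ) [Fact q.Prime]
    (H Pp S Cz CP X T : Subgroup G) [hHn : H.Normal] (z : G)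
    (hSdef : S = ⁅H, Pp⁆) (hCz : Cz = H ⊓ centralizer ({z} : Set G))
    (hCP : CP = H ⊓ centralizer (Pp : Set G))
    (hX : X = (Cfsg.pPrimeCore q ↥Cz).map Cz.subtype)
    (hT : T = (Cfsg.pPrimeCore q ↥CP).map CP.subtype)
    (hdec : S ⊔ CP = H) (hsol : Group.IsSolvable ↥S)
    (hzH : z ∈ H) (hzP : z ∈ centralizer (Pp : Set G)) (hz : ∃ k : ℕ, z ^ q ^ k = 1) :
    (X ⊓ T) ⊔ ⁅X, Pp⁆ ≤ (Cfsg.pPrimeCore q ↥H).map H.subtype := by
  obtain ⟨N0, hN0⟩ : ∃ N : Subgroup G, N = (Cfsg.pPrimeCore q ↥S).map S.subtype := ⟨_, rfl⟩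
  have hSH : S ≤ H := by rw [hSdef]; exact Subgroup.commutator_le_left H Pp
  have hHS : H ≤ normalizer (S : Set G) := by
    apply le_normalizer_of_conj_inv
    intro g hg w hw
    have hle : S ≤ S.comap (MulAut.conj g).toMonoidHom := by
      rw [hSdef, Subgroup.commutator_le]
      intro h hh k hk
      rw [Subgroup.mem_comap]
      show g * ⁅h, k⁆ * g⁻¹ ∈ ⁅H, Pp⁆
      have e : g * ⁅h, k⁆ * g⁻¹ = ⁅g * h, k⁆ * ⁅g, k⁆⁻¹ := by
        simp only [commutatorElement_def]; group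
      rw [e]
      exact Subgroup.mul_mem _ (Subgroup.commutator_mem_commutator (H.mul_mem hg hh) hk)
        (Subgroup.inv_mem _ (Subgroup.commutator_mem_commutator hg hk))
    exact hle hw
  have hCzH : Cz ≤ H := by rw [hCz]; exact inf_le_left
  have hCPH : CP ≤ H := by rw [hCP]; exact inf_le_left
  have hXCz : X ≤ Cz := by rw [hX]; exact Subgroup.map_subtype_le _
  have hTCP : T ≤ CP := by rw [hT]; exact Subgroup.map_subtype_le _
  have hXz : X ≤ centralizer ({z} : Set G) := hXCz.trans (by rw [hCz]; exact inf_le_right)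
  have hXq : (Nat.card ↥X).Coprime q := by rw [hX]; exact ppcOf_coprime q Cz
  have hTq : (Nat.card ↥T).Coprime q := by rw [hT]; exact ppcOf_coprime q CP
  have hCzX : Cz ≤ normalizer (X : Set G) := by
    rw [hX]; exact Subgroup.le_normalizer.trans (char_map_normalizer Cz (Cfsg.pPrimeCore q ↥Cz))
  have hCPT : CP ≤ normalizer (T : Set G) := by
    rw [hT]; exact Subgroup.le_normalizer.trans (char_map_normalizer CP (Cfsg.pPrimeCore q ↥CP))
  have hHN0 : H ≤ normalizer (N0 : Set G) := by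
    rw [hN0]; exact hHS.trans (char_map_normalizer S (Cfsg.pPrimeCore q ↥S))
  have hN0S : N0 ≤ S := by rw [hN0]; exact Subgroup.map_subtype_le _
  have hN0q : (Nat.card ↥N0).Coprime q := by rw [hN0]; exact ppcOf_coprime q S
  have hN0O : N0 ≤ (Cfsg.pPrimeCore q ↥H).map H.subtype :=
    le_ppcOf (hN0S.trans hSH) hHN0 hN0q
  have hzS : z ∈ normalizer (S : Set G) := hHS hzH
  have hbal : ∀ d ∈ X, X ⊓ S ≤ N0 ∧ ∀ s ∈ S, s⁻¹ * d⁻¹ * s * d ∈ N0 := by
    intro d hd
    have hdH : d ∈ H := hCzH (hXCz hd)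
    have hdz : Commute d z := by
      have h1 := hXz hd
      rw [Subgroup.mem_centralizer_iff] at h1
      exact (h1 z (Set.mem_singleton z)).symm
    rw [hN0]
    refine bal_core q S X z d hsol hzS (hHS hdH) hdz hz hXq hXz ?_ hd
    refine le_trans ?_ hCzX
    rw [hCz]
    refine inf_le_inf_right _ ?_
    exact sup_le hSH (sup_le (Subgroup.zpowers_le.mpr hdH) (Subgroup.zpowers_le.mpr hzH))
  have hPX : Pp ≤ normalizer (X : Set G) := by
    have hPCz : Pp ≤ normalizer (Cz : Set G) := by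
      apply le_normalizer_of_conj_inv
      intro b hb w hw
      rw [hCz] at hw ⊢
      obtain ⟨hw1, hw2⟩ := Subgroup.mem_inf.mp hw
      refine Subgroup.mem_inf.mpr ⟨hHn.conj_mem w hw1 b, ?_⟩
      rw [Subgroup.mem_centralizer_iff] at hw2 hzP ⊢
      intro y hy
      rw [Set.mem_singleton_iff.mp hy]
      have hzw : Commute z w := hw2 z (Set.mem_singleton z)
      have hzb : Commute z b := (hzP b hb).symm
      exact ((hzb.mul_right hzw).mul_right hzb.inv_right).eq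
    rw [hX]
    exact hPCz.trans (char_map_normalizer Cz (Cfsg.pPrimeCore q ↥Cz))
  have hcl1 : ⁅X, Pp⁆ ≤ (Cfsg.pPrimeCore q ↥H).map H.subtype := by
    refine le_trans ?_ ((hbal 1 X.one_mem).1.trans hN0O)
    refine le_inf ?_ ?_
    · rw [Subgroup.commutator_le]
      intro x hx g hg
      have h1 : g * x⁻¹ * g⁻¹ ∈ X :=
        (Subgroup.mem_normalizer_iff.mp (hPX hg) x⁻¹).mp (X.inv_mem hx)
      have e : ⁅x, g⁆ = x * (g * x⁻¹ * g⁻¹) := by
        simp only [commutatorElement_def]; group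
      rw [e]; exact X.mul_mem hx h1
    · rw [hSdef]
      exact Subgroup.commutator_mono (hXCz.trans hCzH) le_rfl
  -- the second claim
  obtain ⟨R, hR⟩ : ∃ R : Subgroup G, R = cmodSub H S N0 hHS hHN0 := ⟨_, rfl⟩
  have hRmem : ∀ h : G, h ∈ R ↔ h ∈ H ∧ ∀ s ∈ S, s⁻¹ * h⁻¹ * s * h ∈ N0 := by
    intro h; rw [hR]; exact mem_cmodSub H S N0 hHS hHN0 h
  have hXT_R : X ⊓ T ≤ T ⊓ R := by
    intro d hd
    obtain ⟨hd1, hd2⟩ := Subgroup.mem_inf.mp hd
    refine Subgroup.mem_inf.mpr ⟨hd2, ?_⟩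
    exact (hRmem d).mpr ⟨hCzH (hXCz hd1), (hbal d hd1).2⟩
  have hHR : H ≤ normalizer (R : Set G) := by
    apply le_normalizer_of_conj_inv
    intro c hc h hh
    obtain ⟨hhH, hr⟩ := (hRmem h).mp hh
    refine (hRmem _).mpr ⟨hHn.conj_mem h hhH c, fun s hs => ?_⟩
    have hs' : c⁻¹ * s * c⁻¹⁻¹ ∈ S :=
      (Subgroup.mem_normalizer_iff.mp (hHS (H.inv_mem hc)) s).mp hs
    have c1 := hr _ hs'
    have c2 : c * ((c⁻¹ * s * c⁻¹⁻¹)⁻¹ * h⁻¹ * (c⁻¹ * s * c⁻¹⁻¹) * h) * c⁻¹ ∈ N0 :=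
      (Subgroup.mem_normalizer_iff.mp (hHN0 hc) _).mp c1
    have e : s⁻¹ * (c * h * c⁻¹)⁻¹ * s * (c * h * c⁻¹) =
        c * ((c⁻¹ * s * c⁻¹⁻¹)⁻¹ * h⁻¹ * (c⁻¹ * s * c⁻¹⁻¹) * h) * c⁻¹ := by group
    rw [e]; exact c2
  have hT0N : T ⊓ R ≤ normalizer (N0 : Set G) :=
    (inf_le_left.trans (hTCP.trans hCPH)).trans hHN0
  obtain ⟨W, hW⟩ : ∃ W : Subgroup G, W = N0 ⊔ (T ⊓ R) := ⟨_, rfl⟩
  have hWq : (Nat.card ↥W).Coprime q := by
    rw [hW]
    refine Nat.Coprime.coprime_dvd_left (sup_of_le_normalizer N0 (T ⊓ R) hT0N).2 ?_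
    exact Nat.Coprime.mul_left hN0q
      (Nat.Coprime.coprime_dvd_left (Subgroup.card_dvd_of_le inf_le_left) hTq)
  have hWH : W ≤ H := by
    rw [hW]; exact sup_le (hN0S.trans hSH) (inf_le_left.trans (hTCP.trans hCPH))
  have hCPW : CP ≤ normalizer (W : Set G) := by
    apply le_normalizer_of_conj_inv
    intro c hc w hw
    have hle : W ≤ W.comap (MulAut.conj c).toMonoidHom := by
      rw [hW]
      refine sup_le ?_ ?_
      · intro n hn
        rw [Subgroup.mem_comap]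
        exact Subgroup.mem_sup_left ((Subgroup.mem_normalizer_iff.mp (hHN0 (hCPH hc)) n).mp hn)
      · intro t ht
        rw [Subgroup.mem_comap]
        obtain ⟨ht1, ht2⟩ := Subgroup.mem_inf.mp ht
        exact Subgroup.mem_sup_right (Subgroup.mem_inf.mpr
          ⟨(Subgroup.mem_normalizer_iff.mp (hCPT hc) t).mp ht1,
           (Subgroup.mem_normalizer_iff.mp (hHR (hCPH hc)) t).mp ht2⟩)
    exact hle hw
  have hSW : S ≤ normalizer (W : Set G) := by
    apply le_normalizer_of_conj_inv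
    intro s hs w hw
    have hle : W ≤ W.comap (MulAut.conj s).toMonoidHom := by
      rw [hW]
      refine sup_le ?_ ?_
      · intro n hn
        rw [Subgroup.mem_comap]
        exact Subgroup.mem_sup_left ((Subgroup.mem_normalizer_iff.mp (hHN0 (hSH hs)) n).mp hn)
      · intro t ht
        rw [Subgroup.mem_comap]
        obtain ⟨ht1, ht2⟩ := Subgroup.mem_inf.mp ht
        have c := ((hRmem t).mp ht2).2 s⁻¹ (S.inv_mem hs)
        have c' : t * (s⁻¹⁻¹ * t⁻¹ * s⁻¹ * t)⁻¹ * t⁻¹ ∈ N0 :=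
          (Subgroup.mem_normalizer_iff.mp (hT0N ht) _).mp (N0.inv_mem c)
        have e : (MulAut.conj s).toMonoidHom t = (t * (s⁻¹⁻¹ * t⁻¹ * s⁻¹ * t)⁻¹ * t⁻¹) * t := by
          show s * t * s⁻¹ = _
          group
        rw [e]
        exact Subgroup.mul_mem _ (Subgroup.mem_sup_left c') (Subgroup.mem_sup_right ht)
    exact hle hw
  have hHW : H ≤ normalizer (W : Set G) := by
    have h1 : S ⊔ CP ≤ normalizer (W : Set G) := sup_le hSW hCPW
    rwa [hdec] at h1
  have hWO : W ≤ (Cfsg.pPrimeCore q ↥H).map H.subtype := le_ppcOf hWH hHW hWq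
  refine sup_le ?_ hcl1
  exact (hXT_R.trans (by rw [hW]; exact le_sup_right)).trans hWO

end Cfsg.Agent.Helper10
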