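import Mathlib
import Cfsg.Prelude.Def_OddOrderChar
import Cfsg.Agent.Helper2.CharInner
import Cfsg.Agent.Helper2.CharComplete
import Cfsg.Agent.Helper2.CharOrtho
import Cfsg.Agent.Helper2.CharLinear
import Cfsg.Agent.Helper10.CharConj
import Cfsg.Agent.Helper24.CharBasic

set_option autoImplicit false

namespace Cfsg.Agent.Helper10

open Cfsg

open scoped ComplexConjugate

section BrauerPerm

variable {N : Type*} [Group N] [Fintype N]

/-- **Brauer's permutation lemma** for a single automorphism, in counting form: the number of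
irreducible characters fixed by `σ`, times `|N|`, is the sum of the centralizer orders of the
elements `n` with `σ n` conjugate to `n`. -/
theorem brauer_count (σ : N ≃* N) (F : Finset (IrrCharacter N))
    (hF : ∀ θ : IrrCharacter N, θ ∈ F ↔ (fun n => (θ : N → ℂ) (σ n)) = (θ : N → ℂ))
    (P : Finset N) (hP : ∀ n, n ∈ P ↔ IsConj (σ n) n) :
    F.card * Nat.card N = ∑ n ∈ P, Nat.card (Subgroup.centralizer ({n} : Set N)) := by
  classical
  have := Helper24.finite_irrCharacter (G := N)
  have := Fintype.ofFinite (IrrCharacter N)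
  have h1 : ∀ θ : IrrCharacter N,
      classInner (fun n => (θ : N → ℂ) (σ n)) (θ : N → ℂ) = if θ ∈ F then 1 else 0 := by
    intro θ
    rw [Helper2.classInner_irr (isIrr_comp_equiv σ θ.2) θ.2]
    exact if_congr (hF θ).symm rfl rfl
  have h2 : ∑ θ : IrrCharacter N, classInner (fun n => (θ : N → ℂ) (σ n)) (θ : N → ℂ) =
      (F.card : ℂ) := by
    rw [Finset.sum_congr rfl (fun θ _ => h1 θ), Finset.sum_boole, Finset.filter_mem_eq_inter,
      Finset.univ_inter]
  have h3 : ∑ θ : IrrCharacter N, classInner (fun n => (θ : N → ℂ) (σ n)) (θ : N → ℂ) =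
      (Nat.card N : ℂ)⁻¹ *
        ∑ n : N, ∑ θ : IrrCharacter N, (θ : N → ℂ) (σ n) * conj ((θ : N → ℂ) n) := by
    unfold classInner
    rw [← Finset.mul_sum, Finset.sum_comm]
  have h4 : ∑ n : N, ∑ θ : IrrCharacter N, (θ : N → ℂ) (σ n) * conj ((θ : N → ℂ) n) =
      ((∑ n ∈ P, Nat.card (Subgroup.centralizer ({n} : Set N)) : ℕ) : ℂ) := by
    rw [Finset.sum_congr rfl (fun n _ => Helper2.second_orthogonality (σ n) n)]
    rw [Finset.sum_ite, Finset.sum_const_zero, add_zero]
    have hfil : Finset.univ.filter (fun n : N => IsConj (σ n) n) = P := by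
      ext n
      rw [Finset.mem_filter, hP]
      simp
    rw [hfil]
    push_cast
    rfl
  rw [h2, h4] at h3
  have hN0 : (Nat.card N : ℂ) ≠ 0 := by exact_mod_cast Nat.card_pos.ne'
  have h5 : ((F.card * Nat.card N : ℕ) : ℂ) =
      ((∑ n ∈ P, Nat.card (Subgroup.centralizer ({n} : Set N)) : ℕ) : ℂ) := by
    push_cast
    rw [h3]
    push_cast
    field_simp
  exact_mod_cast h5

/-- If `σ` fixes no nontrivial conjugacy class, it fixes no nonprincipal irreducible
character. -/
theorem irr_eq_one_of_fixed (σ : N ≃* N) (hfix : ∀ n : N, n ≠ 1 → ¬ IsConj (σ n) n)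
    {θ : N → ℂ} (hθ : IsIrrCharacter N θ) (hθσ : (fun n => θ (σ n)) = θ) :
    θ = fun _ => 1 := by
  classical
  have := Helper24.finite_irrCharacter (G := N)
  have := Fintype.ofFinite (IrrCharacter N)
  have h := brauer_count σ
    (Finset.univ.filter (fun θ : IrrCharacter N => (fun n => (θ : N → ℂ) (σ n)) = (θ : N → ℂ)))
    (fun θ => by simp) ({1} : Finset N) (by
      intro n
      rw [Finset.mem_singleton]
      constructor
      · rintro rfl
        rw [map_one]
      · intro hc
        by_contra hn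
        exact hfix n hn hc)
  rw [Finset.sum_singleton] at h
  have hc1 : Nat.card (Subgroup.centralizer ({1} : Set N)) = Nat.card N := by
    have : Subgroup.centralizer ({1} : Set N) = ⊤ := by
      ext x
      simp [Subgroup.mem_centralizer_iff]
    rw [this, Subgroup.card_top]
  rw [hc1] at h
  have hcard : (Finset.univ.filter (fun θ : IrrCharacter N =>
      (fun n => (θ : N → ℂ) (σ n)) = (θ : N → ℂ))).card = 1 := by
    have hpos : 0 < Nat.card N := Nat.card_pos
    nlinarith
  obtain ⟨a, ha⟩ := Finset.card_eq_one.1 hcard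
  have hm1 : (⟨θ, hθ⟩ : IrrCharacter N) ∈ Finset.univ.filter (fun θ : IrrCharacter N =>
      (fun n => (θ : N → ℂ) (σ n)) = (θ : N → ℂ)) := by
    rw [Finset.mem_filter]
    exact ⟨Finset.mem_univ _, hθσ⟩
  have hm2 : (⟨fun _ => 1, Helper2.isIrrCharacter_one_fun⟩ : IrrCharacter N) ∈
      Finset.univ.filter (fun θ : IrrCharacter N =>
        (fun n => (θ : N → ℂ) (σ n)) = (θ : N → ℂ)) := by
    rw [Finset.mem_filter]
    exact ⟨Finset.mem_univ _, rfl⟩
  rw [ha, Finset.mem_singleton] at hm1 hm2
  have h3 := hm1.trans hm2.symm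
  exact congrArg Subtype.val h3

/-- If `σ` fixes a nontrivial conjugacy class, it fixes a nonprincipal irreducible character. -/
theorem exists_fixed_irr_ne_one (σ : N ≃* N) {n₀ : N} (hn₀ : n₀ ≠ 1) (hc : IsConj (σ n₀) n₀) :
    ∃ θ : N → ℂ, IsIrrCharacter N θ ∧ θ ≠ (fun _ => 1) ∧ (fun n => θ (σ n)) = θ := by
  classical
  have := Helper24.finite_irrCharacter (G := N)
  have := Fintype.ofFinite (IrrCharacter N)
  have h := brauer_count σ
    (Finset.univ.filter (fun θ : IrrCharacter N => (fun n => (θ : N → ℂ) (σ n)) = (θ : N → ℂ)))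
    (fun θ => by simp) (Finset.univ.filter (fun n : N => IsConj (σ n) n)) (fun n => by simp)
  have hsub : ({1, n₀} : Finset N) ⊆ Finset.univ.filter (fun n : N => IsConj (σ n) n) := by
    intro n hn
    rw [Finset.mem_insert, Finset.mem_singleton] at hn
    rw [Finset.mem_filter]
    refine ⟨Finset.mem_univ _, ?_⟩
    rcases hn with rfl | rfl
    · rw [map_one]
    · exact hc
  have hle := Finset.sum_le_sum_of_subset (f := fun n : N =>
    Nat.card (Subgroup.centralizer ({n} : Set N))) hsub
  rw [Finset.sum_pair (Ne.symm hn₀)] at hle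
  have hc1 : Nat.card (Subgroup.centralizer ({1} : Set N)) = Nat.card N := by
    have : Subgroup.centralizer ({1} : Set N) = ⊤ := by
      ext x
      simp [Subgroup.mem_centralizer_iff]
    rw [this, Subgroup.card_top]
  have hpos : 0 < Nat.card (Subgroup.centralizer ({n₀} : Set N)) := Nat.card_pos
  rw [hc1] at hle
  have hcard : 1 < (Finset.univ.filter (fun θ : IrrCharacter N =>
      (fun n => (θ : N → ℂ) (σ n)) = (θ : N → ℂ))).card := by
    by_contra hcon
    push Not at hcon
    have : (Finset.univ.filter (fun θ : IrrCharacter N =>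
      (fun n => (θ : N → ℂ) (σ n)) = (θ : N → ℂ))).card * Nat.card N ≤ 1 * Nat.card N :=
      Nat.mul_le_mul_right _ hcon
    omega
  obtain ⟨θ, hθ, hne⟩ := Finset.exists_mem_ne hcard
    (⟨fun _ => 1, Helper2.isIrrCharacter_one_fun⟩ : IrrCharacter N)
  refine ⟨(θ : N → ℂ), θ.2, ?_, (Finset.mem_filter.1 hθ).2⟩
  intro h1
  apply hne
  exact Subtype.ext h1

end BrauerPerm

end Cfsg.Agent.Helper10
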