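import Mathlib
import Cfsg.Prelude.Def_OddOrderChar
import Cfsg.Agent.Helper2.CharInner
import Cfsg.Agent.Helper2.CharBound
import Cfsg.Agent.Helper10.VirtualChar
import Cfsg.Agent.Helper10.IndLemmas
import Cfsg.Agent.Helper10.ZSpan
import Cfsg.Agent.Helper10.Bessel

set_option autoImplicit false

namespace Cfsg.Agent.Helper10

open Cfsg

open scoped ComplexConjugate

section CohSys

variable {G : Type*} [Group G] [Fintype G]

theorem classInner_conjFun (f g : G → ℂ) :
    classInner (conjFun f) (conjFun g) = conj (classInner f g) := by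
  unfold classInner conjFun
  rw [map_mul, map_inv₀, Complex.conj_natCast, map_sum]
  congr 1
  refine Finset.sum_congr rfl fun x _ => ?_
  rw [map_mul]

theorem conjFun_conjFun (f : G → ℂ) : conjFun (conjFun f) = f := by
  funext x
  unfold conjFun
  simp

/-- A character vanishing at one is zero. -/
theorem char_eq_zero_of_apply_one {χ : G → ℂ} (hχ : IsCharacter G χ) (h1 : χ 1 = 0) : χ = 0 := by
  obtain ⟨n, ρ, rfl⟩ := hχ
  have h2 : ρ.character 1 = (Module.finrank ℂ (Fin n → ℂ) : ℂ) := Representation.char_one ρ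
  rw [h1] at h2
  have h3 : Module.finrank ℂ (Fin n → ℂ) = 0 := by exact_mod_cast h2.symm
  funext g
  have h4 := Helper2.character_norm_le ρ g
  rw [h3] at h4
  have h5 : ‖ρ.character g‖ = 0 := le_antisymm (by simpa using h4) (norm_nonneg _)
  simpa using h5

/-- Bessel's inequality for an orthogonal family with positive real weights. -/
theorem bessel_real {ι : Type*} (s : Finset ι) (e : ι → G → ℂ) (X : G → ℂ) (w c : ι → ℝ)
    (hw : ∀ i ∈ s, 0 < w i) (h1 : ∀ i ∈ s, classInner (e i) (e i) = (w i : ℂ))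
    (h0 : ∀ i ∈ s, ∀ j ∈ s, i ≠ j → classInner (e i) (e j) = 0)
    (hc : ∀ i ∈ s, classInner X (e i) = (c i : ℂ)) (r : ℝ) (hX : classInner X X = (r : ℂ)) :
    ∑ i ∈ s, c i ^ 2 / w i ≤ r := by
  classical
  have hXY : classInner X (∑ i ∈ s, ((c i / w i : ℝ) : ℂ) • e i) =
      ((∑ i ∈ s, c i ^ 2 / w i : ℝ) : ℂ) := by
    rw [Helper2.classInner_sum_right]
    push_cast
    refine Finset.sum_congr rfl fun i hi => ?_
    rw [Helper2.classInner_smul_right, hc i hi]
    have hwi : (w i : ℂ) ≠ 0 := by exact_mod_cast (hw i hi).ne'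
    rw [map_div₀, Complex.conj_ofReal, Complex.conj_ofReal]
    field_simp
  have hYX : classInner (∑ i ∈ s, ((c i / w i : ℝ) : ℂ) • e i) X =
      ((∑ i ∈ s, c i ^ 2 / w i : ℝ) : ℂ) := by
    rw [← Helper2.classInner_conj_symm, hXY, Complex.conj_ofReal]
  have hYY : classInner (∑ i ∈ s, ((c i / w i : ℝ) : ℂ) • e i)
      (∑ i ∈ s, ((c i / w i : ℝ) : ℂ) • e i) = ((∑ i ∈ s, c i ^ 2 / w i : ℝ) : ℂ) := by
    rw [Helper2.classInner_sum_left]
    push_cast
    refine Finset.sum_congr rfl fun i hi => ?_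
    rw [Helper2.classInner_smul_left, Helper2.classInner_sum_right, Finset.sum_eq_single i]
    · rw [Helper2.classInner_smul_right, h1 i hi]
      have hwi : (w i : ℂ) ≠ 0 := by exact_mod_cast (hw i hi).ne'
      rw [map_div₀, Complex.conj_ofReal, Complex.conj_ofReal]
      field_simp
    · intro j hj hji
      rw [Helper2.classInner_smul_right, h0 i hi j hj (Ne.symm hji), mul_zero]
    · intro hi'
      exact absurd hi hi'
  have hΔ : classInner (X - ∑ i ∈ s, ((c i / w i : ℝ) : ℂ) • e i)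
      (X - ∑ i ∈ s, ((c i / w i : ℝ) : ℂ) • e i) = ((r - ∑ i ∈ s, c i ^ 2 / w i : ℝ) : ℂ) := by
    rw [Helper2.classInner_sub_left, Helper2.classInner_sub_right, Helper2.classInner_sub_right,
      hX, hXY, hYX, hYY]
    push_cast
    ring
  obtain ⟨r', hr, hr'⟩ := classInner_self_real (X - ∑ i ∈ s, ((c i / w i : ℝ) : ℂ) • e i)
  rw [hΔ] at hr'
  have h2 : r - ∑ i ∈ s, c i ^ 2 / w i = r' := by exact_mod_cast hr'
  linarith

/-- Bessel's inequality for the union of an orthonormal family and an orthogonal weighted one. -/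
theorem bessel_two {ι κ : Type*} (s : Finset ι) (t : Finset κ) (e : ι → G → ℂ) (f : κ → G → ℂ)
    (X : G → ℂ) (c : ι → ℝ) (b w : κ → ℝ) (hw : ∀ k ∈ t, 0 < w k)
    (he1 : ∀ i ∈ s, classInner (e i) (e i) = 1)
    (he0 : ∀ i ∈ s, ∀ j ∈ s, i ≠ j → classInner (e i) (e j) = 0)
    (hf1 : ∀ k ∈ t, classInner (f k) (f k) = (w k : ℂ))
    (hf0 : ∀ k ∈ t, ∀ l ∈ t, k ≠ l → classInner (f k) (f l) = 0)
    (hef : ∀ i ∈ s, ∀ k ∈ t, classInner (e i) (f k) = 0)
    (hc : ∀ i ∈ s, classInner X (e i) = (c i : ℂ))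
    (hb : ∀ k ∈ t, classInner X (f k) = (b k : ℂ)) (r : ℝ) (hX : classInner X X = (r : ℂ)) :
    ∑ i ∈ s, c i ^ 2 + ∑ k ∈ t, b k ^ 2 / w k ≤ r := by
  classical
  have h := bessel_real (s.disjSum t) (Sum.elim e f) X (Sum.elim (fun _ => 1) w) (Sum.elim c b)
    ?_ ?_ ?_ ?_ r hX
  · rw [Finset.sum_disjSum] at h
    simpa using h
  · rintro (i | k) hi
    · simp
    · simpa using hw k (Finset.inr_mem_disjSum.1 hi)
  · rintro (i | k) hi
    · simpa using he1 i (Finset.inl_mem_disjSum.1 hi)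
    · simpa using hf1 k (Finset.inr_mem_disjSum.1 hi)
  · rintro (i | k) hi (j | l) hj hne
    · exact he0 i (Finset.inl_mem_disjSum.1 hi) j (Finset.inl_mem_disjSum.1 hj)
        (fun h => hne (by rw [h]))
    · exact hef i (Finset.inl_mem_disjSum.1 hi) l (Finset.inr_mem_disjSum.1 hj)
    · show classInner (f k) (e j) = 0
      rw [← Helper2.classInner_conj_symm,
        hef j (Finset.inl_mem_disjSum.1 hj) k (Finset.inr_mem_disjSum.1 hi), map_zero]
    · exact hf0 k (Finset.inr_mem_disjSum.1 hi) l (Finset.inr_mem_disjSum.1 hj)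
        (fun h => hne (by rw [h]))
  · rintro (i | k) hi
    · exact hc i (Finset.inl_mem_disjSum.1 hi)
    · exact hb k (Finset.inr_mem_disjSum.1 hi)

/-- The norm of the sum of an orthonormal family is its cardinality. -/
theorem classInner_sum_orthonormal (R : Finset (G → ℂ)) (hR1 : ∀ α ∈ R, classInner α α = 1)
    (hR0 : ∀ α ∈ R, ∀ β ∈ R, α ≠ β → classInner α β = 0) :
    classInner (∑ α ∈ R, α) (∑ α ∈ R, α) = (R.card : ℂ) := by
  classical
  rw [Helper2.classInner_sum_left]
  rw [Finset.sum_congr rfl (g := fun _ => (1 : ℂ))]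
  · simp
  · intro α hα
    rw [Helper2.classInner_sum_right, Finset.sum_eq_single α]
    · exact hR1 α hα
    · intro β hβ hβα
      exact hR0 α hα β hβ (Ne.symm hβα)
    · intro h
      exact absurd hα h

theorem classInner_sum_orthonormal_right (R : Finset (G → ℂ)) (hR1 : ∀ α ∈ R, classInner α α = 1)
    (hR0 : ∀ α ∈ R, ∀ β ∈ R, α ≠ β → classInner α β = 0) {α : G → ℂ} (hα : α ∈ R) :
    classInner (∑ β ∈ R, β) α = 1 := by
  classical
  rw [Helper2.classInner_sum_left, Finset.sum_eq_single α]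
  · exact hR1 α hα
  · intro β hβ hβα
    exact hR0 β hβ α hα hβα
  · intro h
    exact absurd hα h

/-- If `P - Q` is the sum of an orthonormal family `R` of generalized characters, `P ⊥ Q` and
both have the same norm, then `P` is an integer combination of `R`. -/
theorem half_decomp (R : Finset (G → ℂ)) (hR1 : ∀ α ∈ R, classInner α α = 1)
    (hR0 : ∀ α ∈ R, ∀ β ∈ R, α ≠ β → classInner α β = 0)
    (hRg : ∀ α ∈ R, IsGeneralizedCharacter G α) (P Q : G → ℂ) (hP : IsGeneralizedCharacter G P)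
    (hQ : IsGeneralizedCharacter G Q) (hPQ : P - Q = ∑ α ∈ R, α) (n : ℕ)
    (hPn : classInner P P = (n : ℂ)) (hQn : classInner Q Q = (n : ℂ))
    (hPQ0 : classInner P Q = 0) : ∃ p : (G → ℂ) → ℤ, P = ∑ α ∈ R, p α • α := by
  classical
  have hpex : ∀ α ∈ R, ∃ c : ℤ, classInner P α = (c : ℂ) := fun α hα =>
    gen_inner_int hP (hRg α hα)
  have hqex : ∀ α ∈ R, ∃ c : ℤ, classInner Q α = (c : ℂ) := fun α hα =>
    gen_inner_int hQ (hRg α hα)
  choose! p hp using hpex
  choose! q hq using hqex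
  have hpq : ∀ α ∈ R, p α - q α = 1 := by
    intro α hα
    have h := classInner_sum_orthonormal_right R hR1 hR0 hα
    rw [← hPQ, Helper2.classInner_sub_left, hp α hα, hq α hα] at h
    exact_mod_cast h
  obtain ⟨hle, heq⟩ := bessel_int R (fun α => α) P p hR1 hR0 hp (n : ℤ) (by exact_mod_cast hPn)
  obtain ⟨hle', -⟩ := bessel_int R (fun α => α) Q q hR1 hR0 hq (n : ℤ) (by exact_mod_cast hQn)
  have hQP0 : classInner Q P = 0 := by
    rw [← Helper2.classInner_conj_symm, hPQ0, map_zero]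
  have hcard : (R.card : ℤ) = 2 * n := by
    have h := classInner_sum_orthonormal R hR1 hR0
    rw [← hPQ, Helper2.classInner_sub_left, Helper2.classInner_sub_right,
      Helper2.classInner_sub_right, hPn, hQn, hPQ0, hQP0] at h
    have h' : ((R.card : ℤ) : ℂ) = ((2 * n : ℤ) : ℂ) := by
      push_cast
      rw [← h]
      ring
    exact_mod_cast h'
  have hsum1 : ∑ α ∈ R, (p α - q α) ^ 2 = (R.card : ℤ) := by
    rw [Finset.sum_congr rfl (g := fun _ => (1 : ℤ))]
    · simp
    · intro α hα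
      rw [hpq α hα]
      ring
  have hpqnn : 0 ≤ ∑ α ∈ R, p α * q α := by
    refine Finset.sum_nonneg fun α hα => ?_
    have h := hpq α hα
    have hp' : p α = q α + 1 := by omega
    rw [hp']
    rcases le_or_gt 0 (q α) with h0 | h0
    · positivity
    · have : q α + 1 ≤ 0 := by omega
      nlinarith
  have hexp : ∑ α ∈ R, (p α - q α) ^ 2 =
      ∑ α ∈ R, p α ^ 2 + ∑ α ∈ R, q α ^ 2 - 2 * ∑ α ∈ R, p α * q α := by
    rw [Finset.mul_sum, ← Finset.sum_add_distrib, ← Finset.sum_sub_distrib]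
    refine Finset.sum_congr rfl fun α _ => ?_
    ring
  have hpn : ∑ α ∈ R, p α ^ 2 = (n : ℤ) := by
    rw [hexp, hcard] at hsum1
    linarith
  exact ⟨p, heq hpn⟩

end CohSys

end Cfsg.Agent.Helper10
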