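import Mathlib
import Cfsg.Prelude.Def_OddOrderChar
import Cfsg.Agent.Helper6.Kernel
import Cfsg.Agent.Helper2.CharReg
import Cfsg.Agent.Helper24.ClassSum
import Cfsg.Agent.Helper2.CharLinear
import Cfsg.Agent.Helper2.CharNat
import Cfsg.Agent.Helper10.IndLemmas
import Cfsg.Agent.Helper10.ZSpan
import Cfsg.Agent.Helper10.CohSys
import Cfsg.Agent.Helper10.AbQuot

set_option autoImplicit false

namespace Cfsg.Agent.Helper10

open Cfsg

open scoped ComplexConjugate

section QuotReg

open Classical in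
/-- The regular character of a quotient, inflated: the irreducible characters whose kernel
contains the normal subgroup `N`, weighted by their degrees, sum to `[K : N]` on `N` and to `0`
off `N`. -/
theorem sum_irr_ker_mul {K : Type*} [Group K] [Fintype K] [Fintype (IrrCharacter K)]
    (N : Subgroup K) [N.Normal] (k : K) (I : Finset (IrrCharacter K))
    (hI : ∀ θ : IrrCharacter K, θ ∈ I ↔ ∀ n ∈ N, (θ : K → ℂ) n = (θ : K → ℂ) 1) :
    ∑ θ ∈ I, (θ : K → ℂ) 1 * (θ : K → ℂ) k = if k ∈ N then (N.index : ℂ) else 0 := by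
  have := Fintype.ofFinite N
  have hN0 : (Nat.card N : ℂ) ≠ 0 := by exact_mod_cast Nat.card_pos.ne'
  have havg : ∀ θ : IrrCharacter K, (Nat.card N : ℂ)⁻¹ * ∑ n : N, (θ : K → ℂ) ((n : K) * k) =
      if θ ∈ I then (θ : K → ℂ) k else 0 := by
    intro θ
    by_cases hθ : θ ∈ I
    · rw [if_pos hθ]
      have e : ∀ n ∈ (Finset.univ : Finset N), (θ : K → ℂ) ((n : K) * k) = (θ : K → ℂ) k := by
        intro n _
        exact Helper6.char_mul_of_eq_degree (Helper24.isCharacter_of_irr θ.2)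
          ((hI θ).1 hθ n n.2) k
      rw [Finset.sum_congr rfl e, Finset.sum_const, Finset.card_univ, nsmul_eq_mul,
        ← Nat.card_eq_fintype_card, ← mul_assoc, inv_mul_cancel₀ hN0, one_mul]
    · rw [if_neg hθ]
      have hex : ∃ x ∈ N, (θ : K → ℂ) x ≠ (θ : K → ℂ) 1 := by
        by_contra hcon
        push Not at hcon
        exact hθ ((hI θ).2 hcon)
      rw [Helper25.irr_sum_normal_mul_eq_zero θ.2 N hex k, mul_zero]
  have hreg : ∀ g : K, ∑ θ : IrrCharacter K, (θ : K → ℂ) 1 * (θ : K → ℂ) g =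
      if g = 1 then (Nat.card K : ℂ) else 0 := by
    intro g
    have h1 := congrFun (Helper2.regular_char_eq_sum (G := K)) g
    rw [Helper2.regular_char g, Finset.sum_apply] at h1
    rw [h1]
    refine Finset.sum_congr rfl fun θ _ => ?_
    rw [Pi.smul_apply, smul_eq_mul]
  have hswap : ∀ θ : IrrCharacter K, (θ : K → ℂ) 1 *
      ((Nat.card N : ℂ)⁻¹ * ∑ n : N, (θ : K → ℂ) ((n : K) * k)) =
      ∑ n : N, (Nat.card N : ℂ)⁻¹ * ((θ : K → ℂ) 1 * (θ : K → ℂ) ((n : K) * k)) := by
    intro θ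
    rw [Finset.mul_sum, Finset.mul_sum]
    refine Finset.sum_congr rfl fun n _ => ?_
    ring
  calc ∑ θ ∈ I, (θ : K → ℂ) 1 * (θ : K → ℂ) k
      = ∑ θ : IrrCharacter K, (θ : K → ℂ) 1 * (if θ ∈ I then (θ : K → ℂ) k else 0) := by
        rw [← Finset.sum_subset (Finset.subset_univ I)]
        · refine Finset.sum_congr rfl fun θ hθ => ?_
          rw [if_pos hθ]
        · intro θ _ hθ
          rw [if_neg hθ, mul_zero]
    _ = ∑ θ : IrrCharacter K, (θ : K → ℂ) 1 *
          ((Nat.card N : ℂ)⁻¹ * ∑ n : N, (θ : K → ℂ) ((n : K) * k)) := by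
        refine Finset.sum_congr rfl fun θ _ => ?_
        rw [havg θ]
    _ = (Nat.card N : ℂ)⁻¹ * ∑ n : N, ∑ θ : IrrCharacter K,
          (θ : K → ℂ) 1 * (θ : K → ℂ) ((n : K) * k) := by
        rw [Finset.sum_congr rfl (fun θ _ => hswap θ), Finset.sum_comm, Finset.mul_sum]
        refine Finset.sum_congr rfl fun n _ => ?_
        rw [Finset.mul_sum]
    _ = (Nat.card N : ℂ)⁻¹ * ∑ n : N, (if (n : K) * k = 1 then (Nat.card K : ℂ) else 0) := by
        congr 1
        exact Finset.sum_congr rfl fun n _ => hreg _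
    _ = if k ∈ N then (N.index : ℂ) else 0 := by
        by_cases hk : k ∈ N
        · rw [if_pos hk, Finset.sum_eq_single (⟨k⁻¹, N.inv_mem hk⟩ : N)]
          · rw [if_pos (by simp)]
            have h2 := Subgroup.index_mul_card N
            rw [← h2]
            push_cast
            field_simp
          · intro n _ hn
            rw [if_neg]
            intro h
            apply hn
            apply Subtype.ext
            exact eq_inv_of_mul_eq_one_left h
          · intro h
            exact absurd (Finset.mem_univ _) h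
        · rw [if_neg hk, Finset.sum_eq_zero, mul_zero]
          intro n _
          rw [if_neg]
          intro h
          apply hk
          have h3 : k = (n : K)⁻¹ := eq_inv_of_mul_eq_one_right h
          rw [h3]
          exact N.inv_mem n.2

end QuotReg

section IndNormal

variable {L : Type*} [Group L] [Fintype L]

theorem conjFun_indFun (K : Subgroup L) (θ : K → ℂ) :
    conjFun (indFun K θ) = indFun K (conjFun θ) := by
  classical
  funext g
  show conj (indFun K θ g) = indFun K (conjFun θ) g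
  rw [Helper2.indFun_apply, Helper2.indFun_apply, map_mul, map_inv₀, Complex.conj_natCast,
    map_sum]
  congr 1
  refine Finset.sum_congr rfl fun x _ => ?_
  by_cases hy : x⁻¹ * g * x ∈ K
  · rw [Helper2.extendByZero_apply_mem K θ hy, Helper2.extendByZero_apply_mem K _ hy]
    rfl
  · rw [Helper2.extendByZero_apply_not_mem K θ hy, Helper2.extendByZero_apply_not_mem K _ hy,
      map_zero]

theorem res_indFun_normal (K : Subgroup L) [hK : K.Normal] (θ : K → ℂ) (k : K) :
    indFun K θ k = (Nat.card K : ℂ)⁻¹ * ∑ x : L, θ ⟨x * k * x⁻¹, hK.conj_mem k k.2 x⟩ := by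
  rw [Helper2.indFun_apply]
  congr 1
  rw [← Equiv.sum_comp (Equiv.inv L)]
  refine Finset.sum_congr rfl fun x _ => ?_
  have hm : x * (k : L) * x⁻¹ ∈ K := hK.conj_mem k k.2 x
  simp only [Equiv.inv_apply, inv_inv]
  rw [Helper2.extendByZero_apply_mem K θ hm]

/-- A character induced from a character of `K` whose kernel contains `A ⊓ K` (`A` normal in
`L`) is constant on `A ⊓ K`. -/
theorem indFun_apply_of_ker (K A : Subgroup L) [hK : K.Normal] [hA : A.Normal] (θ : K → ℂ)
    (hθ : ∀ a : K, (a : L) ∈ A → θ a = θ 1) (a : K) (ha : (a : L) ∈ A) :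
    indFun K θ a = indFun K θ 1 := by
  have hone : indFun K θ 1 = (Nat.card K : ℂ)⁻¹ * ∑ _x : L, θ 1 := by
    have h1 := res_indFun_normal K θ (1 : K)
    have e : ∀ x ∈ (Finset.univ : Finset L),
        θ ⟨x * ((1 : K) : L) * x⁻¹, hK.conj_mem _ (1 : K).2 x⟩ = θ 1 := by
      intro x _
      congr 1
      apply Subtype.ext
      simp
    rw [Finset.sum_congr rfl e] at h1
    exact h1
  rw [res_indFun_normal K θ a, hone]
  congr 1
  refine Finset.sum_congr rfl fun x _ => ?_
  exact hθ ⟨x * a * x⁻¹, hK.conj_mem a a.2 x⟩ (hA.conj_mem a ha x)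

theorem sum_res_indFun_eq_zero (K : Subgroup L) [hK : K.Normal] [Fintype K] {θ : K → ℂ}
    (hθ : IsIrrCharacter K θ) (hne : θ ≠ fun _ => 1) : ∑ k : K, indFun K θ k = 0 := by
  have hsum : ∑ k : K, θ k = 0 := by
    have h1 := Helper2.classInner_irr hθ (Helper2.isIrrCharacter_one_fun (G := K))
    rw [if_neg hne] at h1
    unfold classInner at h1
    have hK0 : (Nat.card K : ℂ) ≠ 0 := by exact_mod_cast Nat.card_pos.ne'
    rcases mul_eq_zero.1 h1 with h | h
    · exact absurd (inv_eq_zero.1 h) hK0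
    · rw [← h]
      refine Finset.sum_congr rfl fun k _ => ?_
      simp
  have e : ∀ k ∈ (Finset.univ : Finset K), indFun K θ k =
      (Nat.card K : ℂ)⁻¹ * ∑ x : L, θ ⟨x * k * x⁻¹, hK.conj_mem k k.2 x⟩ :=
    fun k _ => res_indFun_normal K θ k
  rw [Finset.sum_congr rfl e, ← Finset.mul_sum, Finset.sum_comm]
  have e2 : ∀ x ∈ (Finset.univ : Finset L),
      ∑ k : K, θ ⟨x * k * x⁻¹, hK.conj_mem k k.2 x⟩ = 0 := by
    intro x _
    have h2 := Equiv.sum_comp (MulAut.conjNormal x : K ≃* K).toEquiv θ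
    rw [hsum] at h2
    rw [← h2]
    refine Finset.sum_congr rfl fun k _ => ?_
    congr 1
  rw [Finset.sum_congr rfl e2, Finset.sum_const_zero, mul_zero]

open Classical in
/-- The sum of `φ(1)² / ⟨φ, φ⟩` over the characters `φ` of `L` induced from the non-principal
irreducible characters of the normal subgroup `K` whose kernel contains `A ⊓ K`. -/
theorem sum_deg_sq_div_norm (K A : Subgroup L) [hK : K.Normal] [hA : A.Normal] [Fintype K]
    [Fintype (IrrCharacter K)] (TA : Finset (IrrCharacter K))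
    (hTA : ∀ θ : IrrCharacter K, θ ∈ TA ↔ (θ : K → ℂ) ≠ (fun _ => 1) ∧
      ∀ a : K, (a : L) ∈ A → (θ : K → ℂ) a = (θ : K → ℂ) 1)
    (horth : ∀ θ ∈ TA, ∀ θ' ∈ TA, indFun K (θ : K → ℂ) ≠ indFun K (θ' : K → ℂ) →
      classInner (indFun K (θ : K → ℂ)) (indFun K (θ' : K → ℂ)) = 0) :
    ∑ φ ∈ TA.image (fun θ : IrrCharacter K => indFun K (θ : K → ℂ)),
      φ 1 ^ 2 / classInner φ φ = (K.index : ℂ) * ((A.relIndex K : ℂ) - 1) := by
  have hK0 : (Nat.card K : ℂ) ≠ 0 := by exact_mod_cast Nat.card_pos.ne'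
  have hNn : (A.subgroupOf K).Normal := by
    refine ⟨fun n hn g => ?_⟩
    rw [Subgroup.mem_subgroupOf] at hn ⊢
    exact hA.conj_mem n hn g
  obtain ⟨triv, htriv⟩ : ∃ triv : IrrCharacter K, (triv : K → ℂ) = fun _ => 1 :=
    ⟨⟨fun _ => 1, Helper2.isIrrCharacter_one_fun⟩, rfl⟩
  have htrivTA : triv ∉ TA := by
    intro h
    exact ((hTA triv).1 h).1 htriv
  -- the function ρ'
  have hρ : ∀ k : K, ∑ θ ∈ TA, (θ : K → ℂ) 1 * (θ : K → ℂ) k =
      (if (k : L) ∈ A then (A.relIndex K : ℂ) else 0) - 1 := by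
    intro k
    have h1 := sum_irr_ker_mul (A.subgroupOf K) k (insert triv TA) (by
      intro θ
      rw [Finset.mem_insert, hTA]
      constructor
      · rintro (h | h)
        · intro n _
          rw [h, htriv]
        · intro n hn
          exact h.2 n (Subgroup.mem_subgroupOf.1 hn)
      · intro h
        by_cases hθ : (θ : K → ℂ) = fun _ => 1
        · left
          exact Subtype.ext (hθ.trans htriv.symm)
        · right
          exact ⟨hθ, fun a ha => h a (Subgroup.mem_subgroupOf.2 ha)⟩)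
    rw [Finset.sum_insert htrivTA, htriv] at h1
    have h2 : (if k ∈ A.subgroupOf K then ((A.subgroupOf K).index : ℂ) else 0) =
        if (k : L) ∈ A then (A.relIndex K : ℂ) else 0 := by
      refine if_congr Subgroup.mem_subgroupOf rfl rfl
    rw [h2] at h1
    rw [← h1]
    ring
  -- the constituents' inner products
  have hkey : ∀ θ₀ ∈ TA, (∑ θ ∈ TA.filter (fun θ : IrrCharacter K =>
      indFun K (θ : K → ℂ) = indFun K (θ₀ : K → ℂ)), (θ : K → ℂ) 1) *
      classInner (indFun K (θ₀ : K → ℂ)) (indFun K (θ₀ : K → ℂ)) =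
        indFun K (θ₀ : K → ℂ) 1 := by
    intro θ₀ hθ₀
    obtain ⟨hθ₀ne, hθ₀ker⟩ := (hTA θ₀).1 hθ₀
    have hφc : IsCharacter L (indFun K (θ₀ : K → ℂ)) :=
      Helper2.isCharacter_indFun K (Helper24.isCharacter_of_irr θ₀.2)
    -- via orthogonality
    have h1 : classInner (indFun K (∑ θ ∈ TA, (θ : K → ℂ) 1 • (θ : K → ℂ)))
        (indFun K (θ₀ : K → ℂ)) =
        (∑ θ ∈ TA.filter (fun θ : IrrCharacter K =>
          indFun K (θ : K → ℂ) = indFun K (θ₀ : K → ℂ)), (θ : K → ℂ) 1) *
        classInner (indFun K (θ₀ : K → ℂ)) (indFun K (θ₀ : K → ℂ)) := by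
      rw [indFun_sum, Helper2.classInner_sum_left, Finset.sum_mul, Finset.sum_filter]
      refine Finset.sum_congr rfl fun θ hθ => ?_
      rw [indFun_smul, Helper2.classInner_smul_left]
      by_cases h : indFun K (θ : K → ℂ) = indFun K (θ₀ : K → ℂ)
      · rw [if_pos h, h]
      · rw [if_neg h, horth θ hθ θ₀ hθ₀ h, mul_zero]
    -- via Frobenius reciprocity
    have h2 : classInner (indFun K (∑ θ ∈ TA, (θ : K → ℂ) 1 • (θ : K → ℂ)))
        (indFun K (θ₀ : K → ℂ)) = indFun K (θ₀ : K → ℂ) 1 := by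
      rw [Helper2.frobenius_reciprocity K _ _ (Helper2.isClassFunction_indFun K _)]
      unfold classInner
      have e : ∀ k ∈ (Finset.univ : Finset K),
          (∑ θ ∈ TA, (θ : K → ℂ) 1 • (θ : K → ℂ)) k * conj (indFun K (θ₀ : K → ℂ) k) =
          (if (k : L) ∈ A then (A.relIndex K : ℂ) * conj (indFun K (θ₀ : K → ℂ) 1) else 0) -
            conj (indFun K (θ₀ : K → ℂ) k) := by
        intro k _
        have e1 : (∑ θ ∈ TA, (θ : K → ℂ) 1 • (θ : K → ℂ)) k =
            ∑ θ ∈ TA, (θ : K → ℂ) 1 * (θ : K → ℂ) k := by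
          rw [Finset.sum_apply]
          refine Finset.sum_congr rfl fun θ _ => ?_
          rw [Pi.smul_apply, smul_eq_mul]
        rw [e1, hρ k]
        by_cases hk : (k : L) ∈ A
        · rw [if_pos hk, if_pos hk, indFun_apply_of_ker K A _ hθ₀ker k hk]
          ring
        · rw [if_neg hk, if_neg hk]
          ring
      rw [Finset.sum_congr rfl e, Finset.sum_sub_distrib, ← map_sum,
        sum_res_indFun_eq_zero K θ₀.2 hθ₀ne, map_zero, sub_zero, ← Finset.sum_filter,
        Finset.sum_const, nsmul_eq_mul, Helper2.irr_apply_one_conj hφc]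
      have hcard : (Finset.univ.filter (fun k : K => (k : L) ∈ A)).card =
          Nat.card (A.subgroupOf K) := by
        rw [Nat.card_eq_fintype_card, Fintype.card_subtype]
        congr 1
      have h3 := Subgroup.index_mul_card (A.subgroupOf K)
      have h4 : A.relIndex K = (A.subgroupOf K).index := rfl
      rw [hcard, h4, ← h3]
      have hA0 : (Nat.card (A.subgroupOf K) : ℂ) ≠ 0 := by exact_mod_cast Nat.card_pos.ne'
      have hi0 : ((A.subgroupOf K).index : ℂ) ≠ 0 := by
        have := Subgroup.index_ne_zero_of_finite (H := A.subgroupOf K)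
        exact_mod_cast this
      push_cast
      field_simp
    rw [← h1, h2]
  -- assemble
  have hne0 : ∀ θ₀ ∈ TA, classInner (indFun K (θ₀ : K → ℂ)) (indFun K (θ₀ : K → ℂ)) ≠ 0 := by
    intro θ₀ hθ₀ h0
    have h1 := hkey θ₀ hθ₀
    rw [h0, mul_zero] at h1
    have h2 := indFun_one K (θ₀ : K → ℂ)
    rw [← h1] at h2
    have hL0 : (Nat.card L : ℂ) ≠ 0 := by exact_mod_cast Nat.card_pos.ne'
    have h3 := Helper24.irr_one_ne_zero θ₀.2
    have h4 : (Nat.card K : ℂ)⁻¹ * (Nat.card L : ℂ) * (θ₀ : K → ℂ) 1 ≠ 0 :=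
      mul_ne_zero (mul_ne_zero (inv_ne_zero hK0) hL0) h3
    exact h4 h2.symm
  have hterm : ∀ φ ∈ TA.image (fun θ : IrrCharacter K => indFun K (θ : K → ℂ)),
      φ 1 ^ 2 / classInner φ φ =
        ∑ θ ∈ TA.filter (fun θ : IrrCharacter K => indFun K (θ : K → ℂ) = φ),
          indFun K (θ : K → ℂ) 1 * (θ : K → ℂ) 1 := by
    intro φ hφ
    obtain ⟨θ₀, hθ₀, rfl⟩ := Finset.mem_image.1 hφ
    have h1 := hkey θ₀ hθ₀
    have h0 := hne0 θ₀ hθ₀
    have e : ∀ θ ∈ TA.filter (fun θ : IrrCharacter K =>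
        indFun K (θ : K → ℂ) = indFun K (θ₀ : K → ℂ)),
        indFun K (θ : K → ℂ) 1 * (θ : K → ℂ) 1 =
          indFun K (θ₀ : K → ℂ) 1 * (θ : K → ℂ) 1 := by
      intro θ hθ
      rw [(Finset.mem_filter.1 hθ).2]
    rw [Finset.sum_congr rfl e, ← Finset.mul_sum, div_eq_iff h0, mul_assoc, h1]
    ring
  rw [Finset.sum_congr rfl hterm,
    Finset.sum_fiberwise_of_maps_to (fun θ hθ => Finset.mem_image_of_mem _ hθ)]
  have e : ∀ θ ∈ TA, indFun K (θ : K → ℂ) 1 * (θ : K → ℂ) 1 =
      (K.index : ℂ) * ((θ : K → ℂ) 1 * (θ : K → ℂ) 1) := by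
    intro θ _
    rw [indFun_one]
    have h3 := Subgroup.index_mul_card K
    rw [← h3]
    push_cast
    field_simp
  rw [Finset.sum_congr rfl e, ← Finset.mul_sum, hρ 1, if_pos (by simp)]

end IndNormal

end Cfsg.Agent.Helper10
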