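import Mathlib
import Cfsg.Prelude.Def_OddOrderChar
import Cfsg.Agent.Helper10.IndAbove
import Cfsg.Agent.Helper24.CharValues
import Cfsg.Agent.Helper2.CharOrtho
import Cfsg.Agent.S1492

set_option autoImplicit false

namespace Cfsg.Agent.Helper10

open Cfsg

open scoped ComplexConjugate

section

variable {L : Type*} [Group L] [Fintype L] {G : Type*} [Group G] [Fintype G]

theorem inducedIrrAbove_anti (K : Subgroup L) {X Y : Subgroup L} (h : X ≤ Y) :
    inducedIrrAbove K Y ⊆ inducedIrrAbove K X := by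
  rintro φ ⟨θ, hθ, hne, hker, rfl⟩
  exact ⟨θ, hθ, hne, fun a ha => hker a (h ha), rfl⟩

theorem inducedIrrAbove_subset_bot (K X : Subgroup L) :
    inducedIrrAbove K X ⊆ inducedIrrAbove K ⊥ :=
  inducedIrrAbove_anti K bot_le

theorem inducedIrrAbove_conj (K X : Subgroup L) {φ : L → ℂ} (h : φ ∈ inducedIrrAbove K X) :
    conjFun φ ∈ inducedIrrAbove K X := by
  classical
  haveI : Fintype K := Fintype.ofFinite K
  obtain ⟨θ, hθ, hne, hker, rfl⟩ := h
  refine ⟨conjFun θ, Helper2.isIrrCharacter_conj hθ, ?_, ?_, conjFun_indFun K θ⟩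
  · intro h
    apply hne
    funext k
    have h2 : conj (θ k) = 1 := congrFun h k
    have h3 := congrArg conj h2
    simpa using h3
  · intro a ha
    show conj (θ a) = conj (θ 1)
    rw [hker a ha]

theorem cohSys_mono {S S' : Set (L → ℂ)} {τ : (L → ℂ) → (G → ℂ)}
    {R : (L → ℂ) → Finset (G → ℂ)} (hS : IsCoherenceSystem S τ R) (hsub : S' ⊆ S)
    (hne : S'.Nonempty) (hconj : ∀ χ ∈ S', conjFun χ ∈ S') : IsCoherenceSystem S' τ R := by
  have hz : zspanOn S' {1}ᶜ ⊆ zspanOn S {1}ᶜ := fun α hα => ⟨zspan_mono hsub hα.1, hα.2⟩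
  exact
    { nonempty := hne
      isCharacter := fun χ h => hS.isCharacter χ (hsub h)
      conj_mem := hconj
      conj_ne := fun χ h => hS.conj_ne χ (hsub h)
      isometry := ⟨fun α hα β hβ => hS.isometry.1 α (hz hα) β (hz hβ),
        fun α hα n => hS.isometry.2.1 α (hz hα) n,
        fun α hα β hβ => hS.isometry.2.2.1 α (hz hα) β (hz hβ),
        fun α hα => hS.isometry.2.2.2 α (hz hα)⟩
      map_one := fun α hα => hS.map_one α (hz hα)
      orthogonal := fun χ hχ φ hφ h => hS.orthogonal χ (hsub hχ) φ (hsub hφ) h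
      orthonormal := fun χ hχ => hS.orthonormal χ (hsub hχ)
      virtual := fun χ hχ => hS.virtual χ (hsub hχ)
      sum_eq := fun χ hχ => hS.sum_eq χ (hsub hχ)
      disjoint := fun χ hχ φ hφ => hS.disjoint χ (hsub hχ) φ (hsub hφ) }

theorem isCoherent_of_subset {S₁ S₂ : Set (L → ℂ)} {A : Set L} {τ : (L → ℂ) → (G → ℂ)}
    (h : IsCoherent S₂ A τ) (hsub : S₁ ⊆ S₂) (hne : ∃ α ∈ zspanOn S₁ A, α ≠ 0) :
    IsCoherent S₁ A τ := by
  obtain ⟨_, τ₁, hiso, hag⟩ := h
  have hz : zspan S₁ ⊆ zspan S₂ := zspan_mono hsub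
  refine ⟨hne, τ₁, ⟨fun α hα β hβ => hiso.1 α (hz hα) β (hz hβ),
    fun α hα n => hiso.2.1 α (hz hα) n,
    fun α hα β hβ => hiso.2.2.1 α (hz hα) β (hz hβ), fun α hα => hiso.2.2.2 α (hz hα)⟩, ?_⟩
  intro α hα
  exact hag α ⟨hz hα.1, hα.2⟩

theorem cohSys_exists_ne_zero {S : Set (L → ℂ)} {τ : (L → ℂ) → (G → ℂ)}
    {R : (L → ℂ) → Finset (G → ℂ)} (hS : IsCoherenceSystem S τ R) :
    ∃ α ∈ zspanOn S {1}ᶜ, α ≠ 0 := by
  obtain ⟨χ, hχ⟩ := hS.nonempty
  refine ⟨χ - conjFun χ, ?_, ?_⟩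
  · rw [mem_zspanOn_one]
    refine ⟨zspan_sub_mem (mem_zspan_of_mem hχ) (mem_zspan_of_mem (hS.conj_mem χ hχ)), ?_⟩
    show χ 1 - conj (χ 1) = 0
    rw [Helper24.charDegree_spec (hS.isCharacter χ hχ), Complex.conj_natCast, sub_self]
  · intro h
    exact hS.conj_ne χ hχ (sub_eq_zero.1 h).symm

end

section Lin

variable {L : Type*} [Group L] [Fintype L]

theorem exists_linear_above' (K X : Subgroup L) [hX : X.Normal] (hsolv : Group.IsSolvable K)
    (hXK : X < K) : ∃ μ : K →* ℂˣ, μ ≠ 1 ∧ ∀ a : K, (a : L) ∈ X → μ a = 1 := by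
  classical
  haveI : Fintype K := Fintype.ofFinite K
  haveI hN : (X.subgroupOf K).Normal := by
    refine ⟨fun n hn g => ?_⟩
    rw [Subgroup.mem_subgroupOf] at hn ⊢
    exact hX.conj_mem n hn g
  haveI hnt : Nontrivial (K ⧸ X.subgroupOf K) := by
    obtain ⟨k, hkK, hkX⟩ := SetLike.exists_of_lt hXK
    refine ⟨⟨QuotientGroup.mk ⟨k, hkK⟩, 1, ?_⟩⟩
    rw [Ne, QuotientGroup.eq_one_iff, Subgroup.mem_subgroupOf]
    exact hkX
  haveI := hsolv
  have hlt := Group.IsSolvable.commutator_lt_top_of_nontrivial (K ⧸ X.subgroupOf K)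
  obtain ⟨q, -, hq⟩ := SetLike.exists_of_lt hlt
  haveI : Fintype (K ⧸ X.subgroupOf K) := Fintype.ofFinite _
  obtain ⟨ν, hν1, hν2⟩ := exists_hom_ne_one_of_abelian_quot
    (commutator (K ⧸ X.subgroupOf K)) (fun x y => by
      have := Subgroup.commutator_mem_commutator (Subgroup.mem_top x) (Subgroup.mem_top y)
      rw [commutatorElement_def] at this
      exact this) hq
  refine ⟨ν.comp (QuotientGroup.mk' _), ?_, ?_⟩
  · intro h
    obtain ⟨k, rfl⟩ := QuotientGroup.mk_surjective q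
    apply hν2
    have := DFunLike.congr_fun h k
    simpa using this
  · intro a ha
    show ν (QuotientGroup.mk a) = 1
    rw [(QuotientGroup.eq_one_iff a).2 (Subgroup.mem_subgroupOf.2 ha), map_one]

theorem inducedIrrAbove_nonempty (K X : Subgroup L) [hX : X.Normal]
    (hsolv : Group.IsSolvable K) (hXK : X < K) : (inducedIrrAbove K X).Nonempty := by
  obtain ⟨μ, hμ1, hμ2⟩ := exists_linear_above' K X hsolv hXK
  refine ⟨indFun K (fun k => ((μ k : ℂˣ) : ℂ)), fun k => ((μ k : ℂˣ) : ℂ),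
    Helper2.isIrrCharacter_of_hom μ, ?_, ?_, rfl⟩
  · intro h
    apply hμ1
    ext k
    have := congrFun h k
    simpa using this
  · intro a ha
    show ((μ a : ℂˣ) : ℂ) = ((μ 1 : ℂˣ) : ℂ)
    rw [hμ2 a ha, map_one]

/-- An irreducible character whose kernel contains a normal subgroup with abelian quotient is
linear. -/
theorem irr_linear_of_comm_ker {K : Type*} [Group K] [Finite K] {θ : K → ℂ}
    (hθ : IsIrrCharacter K θ) (B : Subgroup K) [hB : B.Normal]
    (hc : ∀ x y : K, x * y * x⁻¹ * y⁻¹ ∈ B) (hker : ∀ b ∈ B, θ b = θ 1) : θ 1 = 1 := by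
  have h := S1492.result θ hθ B ⊤ ⊤ le_top le_rfl (fun c _ b hb => hB.conj_mem b hb c)
    (fun d _ c _ => hc d c) hker
  have ht := Helper24.charDegree_spec (Helper24.isCharacter_of_irr hθ)
  rw [ht, Complex.norm_natCast, Subgroup.card_top] at h
  have hKpos : (0 : ℝ) < Nat.card K := by exact_mod_cast Nat.card_pos
  have h2 : ((charDegree θ : ℕ) : ℝ) ^ 2 ≤ 1 := by
    by_contra hcon
    push_neg at hcon
    nlinarith [mul_pos (sub_pos.2 hcon) (mul_pos hKpos hKpos)]
  have h3 : charDegree θ ≤ 1 := by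
    by_contra hcon
    push_neg at hcon
    have : (2 : ℝ) ≤ (charDegree θ : ℝ) := by exact_mod_cast hcon
    nlinarith
  have h4 : charDegree θ ≠ 0 := by
    intro h0
    exact Helper24.irr_one_ne_zero hθ (by rw [ht, h0]; simp)
  have h5 : charDegree θ = 1 := by omega
  rw [ht, h5]
  simp

theorem inducedIrrAbove_apply_one_of_comm (K X : Subgroup L) [hK : K.Normal] [hX : X.Normal]
    (hc : ⁅K, K⁆ ≤ X) {φ : L → ℂ} (hφ : φ ∈ inducedIrrAbove K X) :
    φ 1 = (K.index : ℂ) := by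
  obtain ⟨θ, hθ, hne, hker, rfl⟩ := hφ
  haveI hN : (X.subgroupOf K).Normal := by
    refine ⟨fun n hn g => ?_⟩
    rw [Subgroup.mem_subgroupOf] at hn ⊢
    exact hX.conj_mem n hn g
  have h1 : θ 1 = 1 := irr_linear_of_comm_ker hθ (X.subgroupOf K) (by
    intro x y
    rw [Subgroup.mem_subgroupOf]
    have := Subgroup.commutator_mem_commutator x.2 y.2
    rw [commutatorElement_def] at this
    exact hc this) (fun b hb => hker b (Subgroup.mem_subgroupOf.1 hb))
  rw [indFun_one, h1, mul_one]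
  have hidx : K.index * Nat.card K = Nat.card L := K.index_mul_card
  have h2 : (Nat.card L : ℂ) = (K.index : ℂ) * (Nat.card K : ℂ) := by exact_mod_cast hidx.symm
  have hK0 : (Nat.card K : ℂ) ≠ 0 := by exact_mod_cast Nat.card_pos.ne'
  rw [h2]
  field_simp

end Lin

end Cfsg.Agent.Helper10
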