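import Mathlib
import Cfsg.Prelude.Def_OddOrderChar
import Cfsg.Agent.Helper2.CharInner
import Cfsg.Agent.Helper2.CharComplete
import Cfsg.Agent.Helper2.CharOrtho
import Cfsg.Agent.Helper2.CharLinear
import Cfsg.Agent.Helper2.CharNat
import Cfsg.Agent.Helper2.IndFun
import Cfsg.Agent.Helper10.CharConj
import Cfsg.Agent.Helper10.IndLemmas
import Cfsg.Agent.Helper10.BrauerPerm
import Cfsg.Agent.Helper24.CharBasic
import Cfsg.Agent.Helper24.CharInv

set_option autoImplicit false

namespace Cfsg.Agent.Helper10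

open Cfsg

open scoped ComplexConjugate

section FrobGroup

/-- If all point stabilizers of an action of a finite group on a finite set lie in `T`, then the
index of `T` divides the number of points. -/
theorem index_dvd_card_of_stabilizer_le {Γ X : Type*} [Group Γ] [Finite Γ] [MulAction Γ X]
    [Finite X] (T : Subgroup Γ) (h : ∀ x : X, MulAction.stabilizer Γ x ≤ T) :
    T.index ∣ Nat.card X := by
  classical
  have e := MulAction.selfEquivSigmaOrbitsQuotientStabilizer Γ X
  haveI : Finite (Quotient (MulAction.orbitRel Γ X)) := Quotient.finite _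
  haveI := Fintype.ofFinite (Quotient (MulAction.orbitRel Γ X))
  rw [Nat.card_congr e, Nat.card_sigma]
  apply Finset.dvd_sum
  intro ω _
  exact Subgroup.index_dvd_of_le (h _)

/-- A quotient of a Frobenius group by a normal subgroup inside the kernel is again Frobenius:
an element centralizing some element of `K ∖ M` modulo `M` lies in `K`. -/
theorem frob_quot {N : Type*} [Group N] [Finite N] (K M : Subgroup N) [hK : K.Normal]
    [hM : M.Normal] (hMK : M ≤ K) (hcop : Nat.Coprime (Nat.card K) K.index)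
    (hC : ∀ w ∈ K, w ≠ 1 → ∀ c : N, c * w = w * c → c ∈ K) :
    ∀ k ∈ K, k ∉ M → ∀ x : N, x * k * x⁻¹ * k⁻¹ ∈ M → x ∈ K := by
  classical
  intro k hkK hkM x hx
  let D : Subgroup N :=
    { carrier := {c | c * k * c⁻¹ * k⁻¹ ∈ M}
      one_mem' := by
        show (1 : N) * k * 1⁻¹ * k⁻¹ ∈ M
        simp
      mul_mem' := by
        intro c d hc hd
        show (c * d) * k * (c * d)⁻¹ * k⁻¹ ∈ M
        have h1 : (c * d) * k * (c * d)⁻¹ * k⁻¹ =
            c * (d * k * d⁻¹ * k⁻¹) * c⁻¹ * (c * k * c⁻¹ * k⁻¹) := by group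
        rw [h1]
        exact M.mul_mem (hM.conj_mem _ hd c) hc
      inv_mem' := by
        intro c hc
        show c⁻¹ * k * c⁻¹⁻¹ * k⁻¹ ∈ M
        have h1 : c⁻¹ * k * c⁻¹⁻¹ * k⁻¹ = c⁻¹ * (c * k * c⁻¹ * k⁻¹)⁻¹ * c⁻¹⁻¹ := by group
        rw [h1]
        exact hM.conj_mem _ (M.inv_mem hc) c⁻¹ }
  have hxD : x ∈ D := hx
  have hCD : Subgroup.zpowers x ≤ D := Subgroup.zpowers_le.2 hxD
  have hmemD : ∀ c : Subgroup.zpowers x, (c : N) * k * (c : N)⁻¹ * k⁻¹ ∈ M := fun c => hCD c.2
  letI : MulAction (Subgroup.zpowers x) {w : N // w * k⁻¹ ∈ M} :=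
    { smul := fun c w => ⟨(c : N) * w.1 * (c : N)⁻¹, by
        have hc := hmemD c
        have h1 : (c : N) * w.1 * (c : N)⁻¹ * k⁻¹ =
            (c : N) * (w.1 * k⁻¹) * (c : N)⁻¹ * ((c : N) * k * (c : N)⁻¹ * k⁻¹) := by group
        rw [h1]
        exact M.mul_mem (hM.conj_mem _ w.2 c) hc⟩
      one_smul := fun w => Subtype.ext (by
        show ((1 : Subgroup.zpowers x) : N) * w.1 * ((1 : Subgroup.zpowers x) : N)⁻¹ = w.1
        simp)
      mul_smul := fun c d w => Subtype.ext (by
        show ((c * d : Subgroup.zpowers x) : N) * w.1 * ((c * d : Subgroup.zpowers x) : N)⁻¹ =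
          (c : N) * ((d : N) * w.1 * (d : N)⁻¹) * (c : N)⁻¹
        simp [mul_assoc]) }
  have hstab : ∀ w : {w : N // w * k⁻¹ ∈ M},
      MulAction.stabilizer (Subgroup.zpowers x) w ≤ K.subgroupOf (Subgroup.zpowers x) := by
    intro w c hc
    rw [MulAction.mem_stabilizer_iff] at hc
    have h1 : (c : N) * w.1 * (c : N)⁻¹ = w.1 := congrArg Subtype.val hc
    rw [Subgroup.mem_subgroupOf]
    have hwK : w.1 ∈ K := by
      have h2 : w.1 = (w.1 * k⁻¹) * k := by group
      rw [h2]
      exact K.mul_mem (hMK w.2) hkK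
    have hw1 : w.1 ≠ 1 := by
      intro h
      apply hkM
      have h2 := w.2
      rw [h, one_mul] at h2
      simpa using M.inv_mem h2
    have h3 : (c : N) * w.1 = w.1 * (c : N) := by
      calc (c : N) * w.1 = ((c : N) * w.1 * (c : N)⁻¹) * (c : N) := by group
        _ = w.1 * (c : N) := by rw [h1]
    exact hC w.1 hwK hw1 c h3
  have hdvd1 : (K.subgroupOf (Subgroup.zpowers x)).index ∣ Nat.card {w : N // w * k⁻¹ ∈ M} :=
    index_dvd_card_of_stabilizer_le _ hstab
  have hcardX : Nat.card {w : N // w * k⁻¹ ∈ M} = Nat.card M := by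
    apply Nat.card_congr
    exact
      { toFun := fun w => ⟨w.1 * k⁻¹, w.2⟩
        invFun := fun m => ⟨m.1 * k, by simpa using m.2⟩
        left_inv := fun w => Subtype.ext (by simp)
        right_inv := fun m => Subtype.ext (by simp) }
  have hdvd2 : K.relIndex (Subgroup.zpowers x) ∣ Nat.card K := by
    have h0 : K.relIndex (Subgroup.zpowers x) = (K.subgroupOf (Subgroup.zpowers x)).index := rfl
    rw [h0]
    refine hdvd1.trans ?_
    rw [hcardX]
    exact Subgroup.card_dvd_of_le hMK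
  have hdvd3 : K.relIndex (Subgroup.zpowers x) ∣ K.index :=
    Subgroup.relIndex_dvd_index_of_normal K _
  have h1 : K.relIndex (Subgroup.zpowers x) = 1 := Nat.eq_one_of_dvd_coprimes hcop hdvd2 hdvd3
  have h2 : Subgroup.zpowers x ≤ K := Subgroup.relIndex_eq_one.1 h1
  exact h2 (Subgroup.mem_zpowers x)

/-- A Frobenius-type group whose kernel has odd order and is not abelian has odd order. -/
theorem odd_card_of_nonabelian_kernel {N : Type*} [Group N] [Finite N] (K : Subgroup N)
    [hK : K.Normal] (hodd : Odd (Nat.card K))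
    (hC : ∀ w ∈ K, w ≠ 1 → ∀ c : N, c * w = w * c → c ∈ K)
    (hna : ¬ ∀ a ∈ K, ∀ b ∈ K, a * b = b * a) : Odd (Nat.card N) := by
  classical
  by_contra hcon
  rw [Nat.not_odd_iff_even] at hcon
  have h2 : 2 ∣ Nat.card N := hcon.two_dvd
  haveI : Fact (Nat.Prime 2) := ⟨Nat.prime_two⟩
  obtain ⟨t, ht⟩ := exists_prime_orderOf_dvd_card' 2 h2
  have htt : t * t = 1 := by
    have h := pow_orderOf_eq_one t
    rw [ht, pow_two] at h
    exact h
  have htinv : t⁻¹ = t := inv_eq_of_mul_eq_one_left htt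
  have htK : t ∉ K := by
    intro h
    have h3 : orderOf t ∣ Nat.card K := Subgroup.orderOf_dvd_natCard K h
    rw [ht] at h3
    exact (Nat.not_even_iff_odd.2 hodd) (even_iff_two_dvd.2 h3)
  let f : K → K := fun w => ⟨(w : N)⁻¹ * (t * (w : N) * t⁻¹),
    K.mul_mem (K.inv_mem w.2) (hK.conj_mem _ w.2 t)⟩
  have hinj : Function.Injective f := by
    intro v w hvw
    have h1 : (v : N)⁻¹ * (t * (v : N) * t⁻¹) = (w : N)⁻¹ * (t * (w : N) * t⁻¹) :=
      congrArg Subtype.val hvw
    by_contra hne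
    have h2 : (v : N) * (w : N)⁻¹ ≠ 1 := by
      intro h
      apply hne
      exact Subtype.ext (mul_inv_eq_one.1 h)
    have h4 : t * (v : N) = (v : N) * (w : N)⁻¹ * t * (w : N) := by
      calc t * (v : N) = (v : N) * ((v : N)⁻¹ * (t * (v : N) * t⁻¹)) * t := by group
        _ = (v : N) * ((w : N)⁻¹ * (t * (w : N) * t⁻¹)) * t := by rw [h1]
        _ = (v : N) * (w : N)⁻¹ * t * (w : N) := by group
    have h3 : t * ((v : N) * (w : N)⁻¹) = ((v : N) * (w : N)⁻¹) * t := by
      calc t * ((v : N) * (w : N)⁻¹) = (t * (v : N)) * (w : N)⁻¹ := by group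
        _ = ((v : N) * (w : N)⁻¹ * t * (w : N)) * (w : N)⁻¹ := by rw [h4]
        _ = ((v : N) * (w : N)⁻¹) * t := by group
    exact htK (hC _ (K.mul_mem v.2 (K.inv_mem w.2)) h2 t h3)
  have hsurj : Function.Surjective f := Finite.surjective_of_injective hinj
  have hinv : ∀ u ∈ K, t * u * t⁻¹ = u⁻¹ := by
    intro u hu
    obtain ⟨w, hw⟩ := hsurj ⟨u, hu⟩
    have h1 : u = (w : N)⁻¹ * (t * (w : N) * t⁻¹) := (congrArg Subtype.val hw).symm
    have e1 : t * ((w : N)⁻¹ * (t * (w : N) * t⁻¹)) * t⁻¹ =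
        t * (w : N)⁻¹ * t * (w : N) * (t⁻¹ * t⁻¹) := by group
    have e2 : ((w : N)⁻¹ * (t * (w : N) * t⁻¹))⁻¹ = t * (w : N)⁻¹ * t⁻¹ * (w : N) := by group
    rw [h1, e1, e2, htinv, htt, mul_one]
  apply hna
  intro a ha b hb
  have h1 := hinv (a * b) (K.mul_mem ha hb)
  have h2 : t * (a * b) * t⁻¹ = (t * a * t⁻¹) * (t * b * t⁻¹) := by group
  rw [h2, hinv a ha, hinv b hb] at h1
  have h3 : b * a = a * b := by
    have := congrArg (fun y => y⁻¹) h1
    simpa using this
  exact h3.symm

/-- In a group of odd order no non-identity element is conjugate to its inverse. -/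
theorem not_isConj_inv_of_odd {N : Type*} [Group N] [Finite N] (hodd : Odd (Nat.card N)) {n : N}
    (hn : n ≠ 1) : ¬ IsConj n⁻¹ n := by
  intro hconj
  obtain ⟨c, hc⟩ := isConj_iff.1 hconj
  have h1 : c * n * c⁻¹ = n⁻¹ := by
    calc c * n * c⁻¹ = (c * n⁻¹ * c⁻¹)⁻¹ := by group
      _ = n⁻¹ := by rw [hc]
  have hcomm2 : Commute (c * c) n := by
    show (c * c) * n = n * (c * c)
    calc (c * c) * n = c * (c * n * c⁻¹) * c := by group
      _ = c * n⁻¹ * c := by rw [h1]
      _ = (c * n⁻¹ * c⁻¹) * (c * c) := by group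
      _ = n * (c * c) := by rw [hc]
  have hco : Odd (orderOf c) := Odd.of_dvd_nat hodd (orderOf_dvd_natCard c)
  obtain ⟨j, hj⟩ := hco
  have hcpow : (c * c) ^ (j + 1) = c := by
    rw [← pow_two, ← pow_mul]
    have h : 2 * (j + 1) = orderOf c + 1 := by omega
    rw [h, pow_succ, pow_orderOf_eq_one, one_mul]
  have hcomm : Commute c n := by
    have h := hcomm2.pow_left (j + 1)
    rwa [hcpow] at h
  have h2 : n⁻¹ = n := by
    calc n⁻¹ = c * n⁻¹ * c⁻¹ := by
          rw [hcomm.inv_right.eq, mul_inv_cancel_right]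
      _ = n := hc
  have h3 : n ^ 2 = 1 := by
    rw [pow_two]
    calc n * n = n⁻¹ * n := by rw [h2]
      _ = 1 := inv_mul_cancel n
  have h4 : orderOf n ∣ 2 := orderOf_dvd_of_pow_eq_one h3
  have h6 : Odd (orderOf n) := Odd.of_dvd_nat hodd (orderOf_dvd_natCard n)
  rcases (Nat.dvd_prime Nat.prime_two).1 h4 with h5 | h5
  · exact hn (orderOf_eq_one_iff.1 h5)
  · rw [h5] at h6
    exact absurd h6 (by decide)

end FrobGroup

section BrauerFun

variable {N : Type*} [Group N] [Fintype N]

/-- Brauer's permutation lemma in counting form for an arbitrary map `σ` of `N` that permutes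
the irreducible characters. -/
theorem brauer_count_fun (σ : N → N)
    (hσ : ∀ θ : IrrCharacter N, IsIrrCharacter N (fun n => (θ : N → ℂ) (σ n)))
    (F : Finset (IrrCharacter N))
    (hF : ∀ θ : IrrCharacter N, θ ∈ F ↔ (fun n => (θ : N → ℂ) (σ n)) = (θ : N → ℂ))
    (P : Finset N) (hP : ∀ n, n ∈ P ↔ IsConj (σ n) n) :
    F.card * Nat.card N = ∑ n ∈ P, Nat.card (Subgroup.centralizer ({n} : Set N)) := by
  classical
  have := Helper24.finite_irrCharacter (G := N)
  have := Fintype.ofFinite (IrrCharacter N)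
  have h1 : ∀ θ : IrrCharacter N,
      classInner (fun n => (θ : N → ℂ) (σ n)) (θ : N → ℂ) = if θ ∈ F then 1 else 0 := by
    intro θ
    rw [Helper2.classInner_irr (hσ θ) θ.2]
    exact if_congr (hF θ).symm rfl rfl
  have h2 : ∑ θ : IrrCharacter N, classInner (fun n => (θ : N → ℂ) (σ n)) (θ : N → ℂ) =
      (F.card : ℂ) := by
    rw [Finset.sum_congr rfl (fun θ _ => h1 θ), Finset.sum_boole, Finset.filter_mem_eq_inter,
      Finset.univ_inter]
  have h3 : ∑ θ : IrrCharacter N, classInner (fun n => (θ : N → ℂ) (σ n)) (θ : N → ℂ) =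
      (Nat.card N : ℂ)⁻¹ *
        ∑ n : N, ∑ θ : IrrCharacter N, (θ : N → ℂ) (σ n) * conj ((θ : N → ℂ) n) := by
    unfold classInner
    rw [← Finset.mul_sum, Finset.sum_comm]
  have h4 : ∑ n : N, ∑ θ : IrrCharacter N, (θ : N → ℂ) (σ n) * conj ((θ : N → ℂ) n) =
      ((∑ n ∈ P, Nat.card (Subgroup.centralizer ({n} : Set N)) : ℕ) : ℂ) := by
    rw [Finset.sum_congr rfl (fun n _ => Helper2.second_orthogonality (σ n) n)]
    rw [Finset.sum_ite, Finset.sum_const_zero, add_zero]
    have hfil : Finset.univ.filter (fun n : N => IsConj (σ n) n) = P := by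
      ext n
      rw [Finset.mem_filter, hP]
      simp
    rw [hfil]
    push_cast
    rfl
  rw [h2, h4] at h3
  have hN0 : (Nat.card N : ℂ) ≠ 0 := by exact_mod_cast Nat.card_pos.ne'
  have h5 : ((F.card * Nat.card N : ℕ) : ℂ) =
      ((∑ n ∈ P, Nat.card (Subgroup.centralizer ({n} : Set N)) : ℕ) : ℂ) := by
    push_cast
    rw [h3]
    push_cast
    field_simp
  exact_mod_cast h5

/-- A group of odd order has no real irreducible character besides the principal one. -/
theorem real_irr_of_odd (hodd : Odd (Nat.card N)) {θ : N → ℂ}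
    (hθ : IsIrrCharacter N θ) (hreal : conjFun θ = θ) : θ = fun _ => 1 := by
  classical
  have := Helper24.finite_irrCharacter (G := N)
  have := Fintype.ofFinite (IrrCharacter N)
  have hinv : ∀ χ : N → ℂ, IsIrrCharacter N χ → (fun n => χ n⁻¹) = conjFun χ := by
    intro χ hχ
    funext n
    exact Helper24.char_inv (Helper24.isCharacter_of_irr hχ) n
  have h := brauer_count_fun (fun n : N => n⁻¹) (fun χ => by
      show IsIrrCharacter N (fun n => (χ : N → ℂ) n⁻¹)
      rw [hinv _ χ.2]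
      exact Helper2.isIrrCharacter_conj χ.2)
    (Finset.univ.filter (fun χ : IrrCharacter N => (fun n => (χ : N → ℂ) n⁻¹) = (χ : N → ℂ)))
    (fun χ => by simp) ({1} : Finset N) (by
      intro n
      rw [Finset.mem_singleton]
      constructor
      · rintro rfl
        show IsConj (1 : N)⁻¹ 1
        rw [inv_one]
      · intro hc
        by_contra hn
        exact not_isConj_inv_of_odd hodd hn hc)
  rw [Finset.sum_singleton] at h
  have hc1 : Nat.card (Subgroup.centralizer ({1} : Set N)) = Nat.card N := by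
    have : Subgroup.centralizer ({1} : Set N) = ⊤ := by
      ext x
      simp [Subgroup.mem_centralizer_iff]
    rw [this, Subgroup.card_top]
  rw [hc1] at h
  have hcard : (Finset.univ.filter (fun χ : IrrCharacter N =>
      (fun n => (χ : N → ℂ) n⁻¹) = (χ : N → ℂ))).card = 1 := by
    have hpos : 0 < Nat.card N := Nat.card_pos
    nlinarith
  obtain ⟨a, ha⟩ := Finset.card_eq_one.1 hcard
  have hm1 : (⟨θ, hθ⟩ : IrrCharacter N) ∈ Finset.univ.filter (fun χ : IrrCharacter N =>
      (fun n => (χ : N → ℂ) n⁻¹) = (χ : N → ℂ)) := by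
    rw [Finset.mem_filter]
    refine ⟨Finset.mem_univ _, ?_⟩
    show (fun n => θ n⁻¹) = θ
    rw [hinv θ hθ]
    exact hreal
  have hm2 : (⟨fun _ => 1, Helper2.isIrrCharacter_one_fun⟩ : IrrCharacter N) ∈
      Finset.univ.filter (fun χ : IrrCharacter N =>
        (fun n => (χ : N → ℂ) n⁻¹) = (χ : N → ℂ)) := by
    rw [Finset.mem_filter]
    exact ⟨Finset.mem_univ _, rfl⟩
  rw [ha, Finset.mem_singleton] at hm1 hm2
  exact congrArg Subtype.val (hm1.trans hm2.symm)

end BrauerFun

section FrobInd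

/-- In a Frobenius-type group every non-principal irreducible character of the kernel induces
irreducibly. -/
theorem frob_ind_irr {Γ : Type*} [Group Γ] [Fintype Γ] (K₀ : Subgroup Γ) [hK : K₀.Normal]
    (hC : ∀ w ∈ K₀, w ≠ 1 → ∀ c : Γ, c * w = w * c → c ∈ K₀) {θ : K₀ → ℂ}
    (hθ : IsIrrCharacter K₀ θ) (hne : θ ≠ fun _ => 1) : IsIrrCharacter Γ (indFun K₀ θ) := by
  classical
  haveI : Fintype K₀ := Fintype.ofFinite K₀
  have hchar : IsCharacter Γ (indFun K₀ θ) :=
    Helper2.isCharacter_indFun K₀ (Helper24.isCharacter_of_irr hθ)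
  apply Helper2.isIrrCharacter_of_norm_one hchar
  rw [classInner_indFun_normal K₀ θ hθ]
  have key : ∀ s : Finset Γ,
      (∀ x, x ∈ s ↔ θ = fun h : K₀ => θ ⟨x * h * x⁻¹, hK.conj_mem h h.2 x⟩) →
      s.card = Nat.card K₀ := by
    intro s hs
    rw [Nat.card_eq_fintype_card]
    refine (Fintype.card_of_subtype s (fun x => ?_)).symm
    rw [hs x]
    constructor
    · intro hx
      by_contra hxK
      apply hne
      refine irr_eq_one_of_fixed (MulAut.conjNormal x : K₀ ≃* K₀) ?_ hθ ?_
      · intro n hn hconj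
        obtain ⟨c, hc⟩ := isConj_iff.1 hconj
        have hc' : (c : Γ) * (x * (n : Γ) * x⁻¹) * (c : Γ)⁻¹ = (n : Γ) := by
          have h := congrArg Subtype.val hc
          simpa [MulAut.conjNormal_apply] using h
        have h1 : ((c : Γ) * x) * (n : Γ) = (n : Γ) * ((c : Γ) * x) := by
          calc ((c : Γ) * x) * (n : Γ)
              = ((c : Γ) * (x * (n : Γ) * x⁻¹) * (c : Γ)⁻¹) * ((c : Γ) * x) := by group
            _ = (n : Γ) * ((c : Γ) * x) := by rw [hc']
        have h2 : (c : Γ) * x ∈ K₀ := hC n n.2 (fun h => hn (Subtype.ext h)) _ h1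
        apply hxK
        have h3 := K₀.mul_mem (K₀.inv_mem c.2) h2
        simpa using h3
      · funext n
        have h1 : (MulAut.conjNormal x : K₀ ≃* K₀) n =
            ⟨x * (n : Γ) * x⁻¹, hK.conj_mem n n.2 x⟩ :=
          Subtype.ext (MulAut.conjNormal_apply x n)
        rw [h1]
        exact (congrFun hx n).symm
    · intro hx
      funext n
      have h1 := Helper2.IsCharacter.isClassFunction (Helper24.isCharacter_of_irr hθ) n ⟨x, hx⟩
      exact h1.symm.trans (congrArg θ (Subtype.ext rfl))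
  rw [key _ (fun x => by simp)]
  exact inv_mul_cancel₀ (by exact_mod_cast Nat.card_pos.ne')

end FrobInd

section TIInd

variable {G : Type*} [Group G] [Fintype G]

/-- Induction from `N` fixes the values on `K ∖ {1}` of class functions vanishing off `K`, when
conjugates of `K ∖ {1}` meet `K` only via `N`. -/
theorem ti_ind_apply (N K : Subgroup G)
    (hti : ∀ y : G, ∀ x ∈ K, x ≠ 1 → y⁻¹ * x * y ∈ K → y ∈ N)
    (α : N → ℂ) (hα : IsClassFunction N α) (hα0 : ∀ n : N, (n : G) ∉ K → α n = 0)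
    (n : N) (hnK : (n : G) ∈ K) (hn1 : n ≠ 1) : indFun N α (n : G) = α n := by
  classical
  haveI : Fintype N := Fintype.ofFinite N
  rw [Helper2.indFun_apply]
  have hterm : ∀ x : G, extendByZero N α (x⁻¹ * (n : G) * x) = if x ∈ N then α n else 0 := by
    intro x
    by_cases hx : x ∈ N
    · rw [if_pos hx]
      have hm : x⁻¹ * (n : G) * x ∈ N := N.mul_mem (N.mul_mem (N.inv_mem hx) n.2) hx
      rw [Helper2.extendByZero_apply_mem N α hm]
      have h1 := hα n (⟨x, hx⟩⁻¹ : N)
      have h2 : (⟨x⁻¹ * (n : G) * x, hm⟩ : N) = (⟨x, hx⟩⁻¹ : N) * n * (⟨x, hx⟩⁻¹ : N)⁻¹ :=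
        Subtype.ext (by simp)
      rw [h2]
      exact h1
    · rw [if_neg hx]
      by_cases hm : x⁻¹ * (n : G) * x ∈ N
      · rw [Helper2.extendByZero_apply_mem N α hm]
        apply hα0
        intro hK'
        exact hx (hti x (n : G) hnK (fun h => hn1 (Subtype.ext h)) hK')
      · exact Helper2.extendByZero_apply_not_mem N α hm
  have hc : (Finset.univ.filter (fun x : G => x ∈ N)).card = Nat.card N := by
    rw [Nat.card_eq_fintype_card]
    exact (Fintype.card_of_subtype _ (fun x => by simp)).symm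
  have hsum : ∑ x : G, (if x ∈ N then α n else 0) = (Nat.card N : ℂ) * α n := by
    rw [← Finset.sum_filter, Finset.sum_const, nsmul_eq_mul, hc]
  rw [Finset.sum_congr rfl (fun x _ => hterm x), hsum, ← mul_assoc,
    inv_mul_cancel₀ (by exact_mod_cast Nat.card_pos.ne'), one_mul]

/-- Induction from `N` is an isometry on class functions supported on `K ∖ {1}`. -/
theorem ti_ind_inner (N K : Subgroup G) [Fintype N]
    (hti : ∀ y : G, ∀ x ∈ K, x ≠ 1 → y⁻¹ * x * y ∈ K → y ∈ N)
    (α β : N → ℂ) (hβ : IsClassFunction N β)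
    (hα0 : ∀ n : N, (n : G) ∉ K → α n = 0) (hα1 : α 1 = 0)
    (hβ0 : ∀ n : N, (n : G) ∉ K → β n = 0) :
    classInner (indFun N α) (indFun N β) = classInner α β := by
  rw [Helper2.frobenius_reciprocity N α (indFun N β) (Helper2.isClassFunction_indFun N β)]
  unfold classInner
  congr 1
  refine Finset.sum_congr rfl fun n _ => ?_
  show α n * conj (indFun N β (n : G)) = α n * conj (β n)
  by_cases hn : (n : G) ∈ K ∧ n ≠ 1
  · rw [ti_ind_apply N K hti β hβ hβ0 n hn.1 hn.2]
  · have h0 : α n = 0 := by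
      by_cases hnK : (n : G) ∈ K
      · have h1 : n = 1 := by_contra fun h => hn ⟨hnK, h⟩
        rw [h1]
        exact hα1
      · exact hα0 n hnK
    rw [h0, zero_mul, zero_mul]

end TIInd

end Cfsg.Agent.Helper10
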