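import Mathlib
import Cfsg.Prelude.Def_OddOrderChar
import Cfsg.Agent.Helper10.IndAbove
import Cfsg.Agent.Helper10.CohAbove
import Cfsg.Agent.Helper6.ConjChar
import Cfsg.Agent.S1487
import Cfsg.Agent.S1492

set_option autoImplicit false

namespace Cfsg.Agent.Helper10

open Cfsg

open scoped ComplexConjugate

section Stable

variable {L : Type*} [Group L] [Fintype L]

open Classical in
/-- The sum of `φ(1)² / ⟨φ, φ⟩` over the characters induced from a family of irreducible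
characters of the normal subgroup `K` that is stable under conjugation by `L`. -/
theorem sum_deg_sq_div_norm_stable (K : Subgroup L) [hK : K.Normal] [Fintype K]
    [Fintype (IrrCharacter K)] (T : Finset (IrrCharacter K))
    (hstab : ∀ θ ∈ T, ∀ x : L, ∃ θ' ∈ T, (θ' : K → ℂ) =
      fun k : K => (θ : K → ℂ) ⟨x * k * x⁻¹, hK.conj_mem k k.2 x⟩)
    (horth : ∀ θ ∈ T, ∀ θ' ∈ T, indFun K (θ : K → ℂ) ≠ indFun K (θ' : K → ℂ) →
      classInner (indFun K (θ : K → ℂ)) (indFun K (θ' : K → ℂ)) = 0) :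
    ∑ φ ∈ T.image (fun θ : IrrCharacter K => indFun K (θ : K → ℂ)),
      φ 1 ^ 2 / classInner φ φ = (K.index : ℂ) * ∑ θ ∈ T, (θ : K → ℂ) 1 ^ 2 := by
  have hK0 : (Nat.card K : ℂ) ≠ 0 := by exact_mod_cast Nat.card_pos.ne'
  have hkey : ∀ θ₀ ∈ T, (∑ θ ∈ T.filter (fun θ : IrrCharacter K =>
      indFun K (θ : K → ℂ) = indFun K (θ₀ : K → ℂ)), (θ : K → ℂ) 1) *
      classInner (indFun K (θ₀ : K → ℂ)) (indFun K (θ₀ : K → ℂ)) =
        indFun K (θ₀ : K → ℂ) 1 := by
    intro θ₀ hθ₀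
    have h1 : classInner (indFun K (∑ θ ∈ T, (θ : K → ℂ) 1 • (θ : K → ℂ)))
        (indFun K (θ₀ : K → ℂ)) =
        (∑ θ ∈ T.filter (fun θ : IrrCharacter K =>
          indFun K (θ : K → ℂ) = indFun K (θ₀ : K → ℂ)), (θ : K → ℂ) 1) *
        classInner (indFun K (θ₀ : K → ℂ)) (indFun K (θ₀ : K → ℂ)) := by
      rw [indFun_sum, Helper2.classInner_sum_left, Finset.sum_mul, Finset.sum_filter]
      refine Finset.sum_congr rfl fun θ hθ => ?_
      rw [indFun_smul, Helper2.classInner_smul_left]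
      by_cases h : indFun K (θ : K → ℂ) = indFun K (θ₀ : K → ℂ)
      · rw [if_pos h, h]
      · rw [if_neg h, horth θ hθ θ₀ hθ₀ h, mul_zero]
    have h2 : classInner (indFun K (∑ θ ∈ T, (θ : K → ℂ) 1 • (θ : K → ℂ)))
        (indFun K (θ₀ : K → ℂ)) = indFun K (θ₀ : K → ℂ) 1 := by
      rw [Helper2.frobenius_reciprocity K _ _ (Helper2.isClassFunction_indFun K _)]
      have hres : (fun k : K => indFun K (θ₀ : K → ℂ) k) = (Nat.card K : ℂ)⁻¹ •
          ∑ x : L, (fun k : K => (θ₀ : K → ℂ) ⟨x * k * x⁻¹, hK.conj_mem k k.2 x⟩) := by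
        funext k
        rw [res_indFun_normal K _ k, Pi.smul_apply, smul_eq_mul, Finset.sum_apply]
      rw [hres, Helper2.classInner_smul_right, Helper2.classInner_sum_right]
      have hterm : ∀ x ∈ (Finset.univ : Finset L),
          classInner (∑ θ ∈ T, (θ : K → ℂ) 1 • (θ : K → ℂ))
            (fun k : K => (θ₀ : K → ℂ) ⟨x * k * x⁻¹, hK.conj_mem k k.2 x⟩) =
              (θ₀ : K → ℂ) 1 := by
        intro x _
        obtain ⟨θ', hθ'T, hθ'⟩ := hstab θ₀ hθ₀ x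
        have h1' : (θ' : K → ℂ) 1 = (θ₀ : K → ℂ) 1 := by
          rw [hθ']
          show (θ₀ : K → ℂ) ⟨x * ((1 : K) : L) * x⁻¹, _⟩ = (θ₀ : K → ℂ) 1
          exact congrArg (θ₀ : K → ℂ) (Subtype.ext (by simp))
        rw [← hθ', Helper2.classInner_sum_left, Finset.sum_eq_single θ']
        · rw [Helper2.classInner_smul_left, Helper2.classInner_irr θ'.2 θ'.2, if_pos rfl,
            mul_one, h1']
        · intro θ _ hne
          rw [Helper2.classInner_smul_left, Helper2.classInner_irr θ.2 θ'.2, if_neg, mul_zero]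
          intro h
          exact hne (Subtype.ext h)
        · intro h
          exact absurd hθ'T h
      rw [Finset.sum_congr rfl hterm, Finset.sum_const, Finset.card_univ, nsmul_eq_mul,
        indFun_one, map_inv₀, Complex.conj_natCast, ← Nat.card_eq_fintype_card]
      ring
    rw [← h1, h2]
  have hne0 : ∀ θ₀ ∈ T, classInner (indFun K (θ₀ : K → ℂ)) (indFun K (θ₀ : K → ℂ)) ≠ 0 := by
    intro θ₀ hθ₀ h0
    have h1 := hkey θ₀ hθ₀
    rw [h0, mul_zero] at h1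
    have h2 := indFun_one K (θ₀ : K → ℂ)
    rw [← h1] at h2
    have hL0 : (Nat.card L : ℂ) ≠ 0 := by exact_mod_cast Nat.card_pos.ne'
    have h3 := Helper24.irr_one_ne_zero θ₀.2
    have h4 : (Nat.card K : ℂ)⁻¹ * (Nat.card L : ℂ) * (θ₀ : K → ℂ) 1 ≠ 0 :=
      mul_ne_zero (mul_ne_zero (inv_ne_zero hK0) hL0) h3
    exact h4 h2.symm
  have hterm : ∀ φ ∈ T.image (fun θ : IrrCharacter K => indFun K (θ : K → ℂ)),
      φ 1 ^ 2 / classInner φ φ =
        ∑ θ ∈ T.filter (fun θ : IrrCharacter K => indFun K (θ : K → ℂ) = φ),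
          indFun K (θ : K → ℂ) 1 * (θ : K → ℂ) 1 := by
    intro φ hφ
    obtain ⟨θ₀, hθ₀, rfl⟩ := Finset.mem_image.1 hφ
    have h1 := hkey θ₀ hθ₀
    have h0 := hne0 θ₀ hθ₀
    have e : ∀ θ ∈ T.filter (fun θ : IrrCharacter K =>
        indFun K (θ : K → ℂ) = indFun K (θ₀ : K → ℂ)),
        indFun K (θ : K → ℂ) 1 * (θ : K → ℂ) 1 =
          indFun K (θ₀ : K → ℂ) 1 * (θ : K → ℂ) 1 := by
      intro θ hθ
      rw [(Finset.mem_filter.1 hθ).2]
    rw [Finset.sum_congr rfl e, ← Finset.mul_sum, div_eq_iff h0, mul_assoc, h1]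
    ring
  rw [Finset.sum_congr rfl hterm,
    Finset.sum_fiberwise_of_maps_to (fun θ hθ => Finset.mem_image_of_mem _ hθ)]
  have e : ∀ θ ∈ T, indFun K (θ : K → ℂ) 1 * (θ : K → ℂ) 1 =
      (K.index : ℂ) * ((θ : K → ℂ) 1 ^ 2) := by
    intro θ _
    rw [indFun_one]
    have h3 := Subgroup.index_mul_card K
    rw [← h3]
    push_cast
    field_simp
  rw [Finset.sum_congr rfl e, ← Finset.mul_sum]

theorem charDegree_indFun (K : Subgroup L) {θ : K → ℂ} (hθ : IsCharacter K θ) :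
    charDegree (indFun K θ) = K.index * charDegree θ := by
  classical
  haveI : Fintype K := Fintype.ofFinite K
  have ht := Helper24.charDegree_spec hθ
  have hχ1 := Helper24.charDegree_spec (Helper2.isCharacter_indFun K hθ)
  have hidx : K.index * Nat.card K = Nat.card L := K.index_mul_card
  have hK0 : (Nat.card K : ℂ) ≠ 0 := by exact_mod_cast Nat.card_pos.ne'
  have h1 := indFun_one K θ
  rw [hχ1, ht] at h1
  have h2 : (Nat.card L : ℂ) = (K.index : ℂ) * (Nat.card K : ℂ) := by exact_mod_cast hidx.symm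
  rw [h2] at h1
  have h3 : ((charDegree (indFun K θ) : ℕ) : ℂ) = ((K.index * charDegree θ : ℕ) : ℂ) := by
    rw [h1]
    push_cast
    field_simp
  exact_mod_cast h3

theorem indFun_mem_above_iff (K Z : Subgroup L) [hK : K.Normal] [hZ : Z.Normal] (hZK : Z ≤ K)
    {θ : K → ℂ} (hθ : IsIrrCharacter K θ) (hne : θ ≠ fun _ => 1) :
    indFun K θ ∈ inducedIrrAbove K Z ↔ ∀ a : K, (a : L) ∈ Z → θ a = θ 1 := by
  constructor
  · rintro ⟨θ', hθ', hne', hker', heq⟩
    have h1 := (S1487.result Z K hZK θ' hθ').1 hker'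
    rw [← heq] at h1
    exact (S1487.result Z K hZK θ hθ).2 h1
  · intro h
    exact ⟨θ, hθ, hne, h, rfl⟩

end Stable

section Deg

open Classical in
theorem sum_deg_sq_not_ker {K : Type*} [Group K] [Fintype K] [Fintype (IrrCharacter K)]
    (N : Subgroup K) [N.Normal] (T : Finset (IrrCharacter K))
    (hT : ∀ θ : IrrCharacter K, θ ∈ T ↔ ¬ ∀ n ∈ N, (θ : K → ℂ) n = (θ : K → ℂ) 1) :
    ∑ θ ∈ T, (θ : K → ℂ) 1 * (θ : K → ℂ) 1 + (N.index : ℂ) = (Nat.card K : ℂ) := by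
  have h1 := sum_irr_ker_mul (⊥ : Subgroup K) (1 : K) Finset.univ (by
    intro θ
    simp)
  have h2 := sum_irr_ker_mul N (1 : K) (Finset.univ.filter (fun θ : IrrCharacter K =>
    ∀ n ∈ N, (θ : K → ℂ) n = (θ : K → ℂ) 1)) (by
    intro θ
    simp)
  rw [if_pos (one_mem _)] at h1 h2
  rw [Subgroup.index_bot] at h1
  rw [← h1, ← h2, ← Finset.sum_filter_add_sum_filter_not Finset.univ
    (fun θ : IrrCharacter K => ∀ n ∈ N, (θ : K → ℂ) n = (θ : K → ℂ) 1), add_comm]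
  congr 1
  apply Finset.sum_congr _ (fun _ _ => rfl)
  ext θ
  simp [hT]

theorem irr_deg_sq_le_index_central {K : Type*} [Group K] [Finite K] {θ : K → ℂ}
    (hθ : IsIrrCharacter K θ) (Zc : Subgroup K) (hc : ∀ z ∈ Zc, ∀ k : K, z * k = k * z) :
    (charDegree θ) ^ 2 ≤ Zc.index := by
  have h := S1492.result θ hθ ⊥ ⊤ Zc bot_le le_top (fun c _ b hb => by
      rw [Subgroup.mem_bot] at hb ⊢
      rw [hb]
      simp) (fun d hd c _ => by
      rw [Subgroup.mem_bot, hc d hd c]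
      group) (fun b hb => by rw [Subgroup.mem_bot.1 hb])
  have ht := Helper24.charDegree_spec (Helper24.isCharacter_of_irr hθ)
  rw [ht, Complex.norm_natCast, Subgroup.card_top] at h
  have h1 := Subgroup.index_mul_card Zc
  have hKpos : 0 < Nat.card K := Nat.card_pos
  have hZpos : 0 < Nat.card Zc := Nat.card_pos
  have h2 : (charDegree θ) ^ 2 * Nat.card K * Nat.card Zc ≤ Nat.card K ^ 2 := by
    exact_mod_cast h
  have h3 : (charDegree θ) ^ 2 * Nat.card Zc ≤ Nat.card K := by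
    by_contra hcon
    push_neg at hcon
    have h4 := Nat.mul_lt_mul_of_pos_right hcon hKpos
    nlinarith
  rw [← h1] at h3
  exact Nat.le_of_mul_le_mul_right h3 hZpos

theorem core_arith (e p k k₀ N Sg : ℕ) (hp : p.Prime) (hp3 : 3 ≤ p) (hpe : ¬ p ∣ e)
    (he : 0 < e) (hk : k₀ < k) (hSg : Sg = e * N) (he2 : e ^ 2 ∣ Sg)
    (hpN : p ^ (2 * k) ∣ N) (hN : 0 < N) : 2 * (e * p ^ k) * (e * p ^ k₀) < Sg := by
  obtain ⟨m', hm'⟩ : e ∣ N := by
    rw [hSg, pow_two] at he2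
    exact (Nat.mul_dvd_mul_iff_left he).1 he2
  have hcop : Nat.Coprime (p ^ (2 * k)) e :=
    Nat.Coprime.pow_left _ ((Nat.Prime.coprime_iff_not_dvd hp).2 hpe)
  have hpm' : p ^ (2 * k) ∣ m' := by
    rw [hm'] at hpN
    exact hcop.dvd_of_dvd_mul_left hpN
  have hm'pos : 0 < m' := by
    rcases Nat.eq_zero_or_pos m' with h | h
    · rw [h, mul_zero] at hm'
      omega
    · exact h
  have hle : p ^ (2 * k) ≤ m' := Nat.le_of_dvd hm'pos hpm'
  have h1 : p ^ (2 * k) = p ^ k * p ^ k := by rw [two_mul, pow_add]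
  have h2 : p ^ (k₀ + 1) ≤ p ^ k := Nat.pow_le_pow_right hp.pos hk
  have h3 : 3 * p ^ k₀ ≤ p ^ k := by
    calc 3 * p ^ k₀ ≤ p * p ^ k₀ := Nat.mul_le_mul_right _ hp3
      _ = p ^ (k₀ + 1) := by rw [pow_succ]; ring
      _ ≤ p ^ k := h2
  have hpk0 : 0 < p ^ k₀ := pow_pos hp.pos _
  have hpk : 0 < p ^ k := pow_pos hp.pos _
  rw [hSg, hm']
  have h4 : 2 * (p ^ k * p ^ k₀) < p ^ k * p ^ k := by nlinarith
  rw [h1] at hle
  calc 2 * (e * p ^ k) * (e * p ^ k₀) = e * e * (2 * (p ^ k * p ^ k₀)) := by ring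
    _ < e * e * (p ^ k * p ^ k) := (Nat.mul_lt_mul_left (Nat.mul_pos he he)).2 h4
    _ ≤ e * e * m' := Nat.mul_le_mul_left _ hle
    _ = e * (e * m') := by ring

end Deg

end Cfsg.Agent.Helper10
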